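import Cfsg.Agent.ChevTw.TwD4Diag

/-!
# The module `F × K × K × F` of the short root `SL₂(q³)` of ³D₄(q), and its small orbits
-/

set_option autoImplicit false
set_option linter.unusedSectionVars false

namespace Cfsg.Agent.D4Deg

open Cfsg.Lie Cfsg.Agent.ChevTw

variable {K : Type*} [Field K] (σ : K →+* K)

/-- The fixed field. -/
abbrev Fx : Subfield K := σ.eqLocusField (RingHom.id K)

/-- Coordinates. -/
abbrev Md : Type _ := ↥(Fx σ) × K × K × ↥(Fx σ)

/-- The trace. -/
def trc (x : K) : K := x + σ x + σ (σ x)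

/-- The norm. -/
def nrm (x : K) : K := x * σ x * σ (σ x)

variable {σ}

theorem fx_apply (a : ↥(Fx σ)) : σ (a : K) = a := a.2

theorem trc_mem (hσ : ∀ x, σ (σ (σ x)) = x) (x : K) : trc σ x ∈ Fx σ := by
  show σ (trc σ x) = trc σ x
  simp [trc, hσ]; ring

theorem nrm_mem (hσ : ∀ x, σ (σ (σ x)) = x) (x : K) : nrm σ x ∈ Fx σ := by
  show σ (nrm σ x) = nrm σ x
  simp [nrm, hσ]; ring

variable (hσ : ∀ x, σ (σ (σ x)) = x)

/-- The trace into the fixed field. -/
def trF (x : K) : ↥(Fx σ) := ⟨_, trc_mem hσ x⟩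

/-- The norm into the fixed field. -/
def nrF (x : K) : ↥(Fx σ) := ⟨_, nrm_mem hσ x⟩

theorem nrF_ne_zero {x : K} (h : x ≠ 0) : nrF hσ x ≠ 0 := fun e =>
  mul_ne_zero (mul_ne_zero h ((map_ne_zero σ).2 h)) ((map_ne_zero σ).2 ((map_ne_zero σ).2 h))
    (congrArg Subtype.val e)

/-- The action of a positive short root element. -/
def fp (t : K) (x : Md σ) : Md σ :=
  (x.1 - trF hσ (x.2.1 * t) - trF hσ (x.2.2.1 * (t * σ (σ t))) - x.2.2.2 * nrF hσ t,
    x.2.1 + x.2.2.1 * σ (σ t) + σ x.2.2.1 * σ t + x.2.2.2 * (σ t * σ (σ t)),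
    x.2.2.1 + x.2.2.2 * σ t,
    x.2.2.2)

/-- The action of a negative short root element. -/
def fn (t : K) (x : Md σ) : Md σ :=
  (x.1,
    x.2.1 - x.1 * t,
    x.2.2.1 + x.2.1 * σ (σ t) + σ (σ x.2.1) * t - x.1 * (t * σ (σ t)),
    x.2.2.2 + trF hσ (x.2.2.1 * σ t) + trF hσ (x.2.1 * (σ t * σ (σ t))) - x.1 * nrF hσ t)

/-- The action of a torus element. -/
def ft (v : K) (x : Md σ) : Md σ :=
  (x.1 * (nrF hσ v)⁻¹, x.2.1 * (v ^ 2 / nrm σ v), x.2.2.1 * (nrm σ v / σ v ^ 2), x.2.2.2 * nrF hσ v)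

variable (σ) in
/-- The coordinates on the eight roots `14 15 16 17 19 20 21 22`. -/
def emb (x : Md σ) : Fin 8 → K :=
  ![(x.1 : K), -σ (σ x.2.1), -σ x.2.1, -σ (σ x.2.2.1), x.2.1, x.2.2.1, σ x.2.2.1, (x.2.2.2 : K)]

variable (σ) in
/-- The pairing. -/
def pair (x m : Md σ) : K :=
  (x.1 : K) * m.1 + trc σ (x.2.1 * m.2.1) + trc σ (x.2.2.1 * m.2.2.1) + x.2.2.2 * m.2.2.2

theorem pair_fn (t : K) (x m : Md σ) : pair σ x (fn hσ t m) = pair σ (fp hσ t x) m := by
  obtain ⟨A, B, C, D⟩ := x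
  obtain ⟨r, s, u, v⟩ := m
  simp only [pair, fn, fp, trc, nrm, trF, nrF, Subfield.coe_sub, Subfield.coe_add, Subfield.coe_mul, map_add,
    map_sub, map_mul, hσ, fx_apply]
  ring

theorem pair_fp (t : K) (x m : Md σ) : pair σ x (fp hσ t m) = pair σ (fn hσ t x) m := by
  obtain ⟨A, B, C, D⟩ := x
  obtain ⟨r, s, u, v⟩ := m
  simp only [pair, fn, fp, trc, nrm, trF, nrF, Subfield.coe_sub, Subfield.coe_add, Subfield.coe_mul, map_add,
    map_sub, map_mul, hσ, fx_apply]
  ring

theorem pair_ft (v : K) (x m : Md σ) : pair σ x (ft hσ v m) = pair σ (ft hσ v x) m := by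
  obtain ⟨A, B, C, D⟩ := x
  obtain ⟨r, s, u, w⟩ := m
  simp only [pair, ft, trc, nrm, nrF, Subfield.coe_mul, Subfield.coe_inv, map_mul, map_div₀, map_pow, hσ]
  ring

theorem pair_add (x m m' : Md σ) : pair σ x (m + m') = pair σ x m + pair σ x m' := by
  simp only [pair, Prod.fst_add, Prod.snd_add, trc, Subfield.coe_add, mul_add, map_add]; ring

theorem pair_comm (x m : Md σ) : pair σ x m = pair σ m x := by
  simp only [pair, mul_comm (x.1 : K), mul_comm (x.2.1), mul_comm (x.2.2.1), mul_comm (x.2.2.2 : K)]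

theorem pair_sub (x y m : Md σ) : pair σ (x - y) m = pair σ x m - pair σ y m := by
  simp only [pair, Prod.fst_sub, Prod.snd_sub, trc, Subfield.coe_sub, sub_mul, map_sub]; ring

section Fin

variable [Fintype K] {q : ℕ} (hq : 1 < q) (hK : Fintype.card K = q ^ 3) (hpow : ∀ x, σ x = x ^ q)

include hq hK hpow

/-- Polynomial identities in the conjugates vanish. -/
theorem coeff_eq_zero (a1 a2 a3 b1 b2 b3 c : K)
    (h : ∀ t : K, a1 * t + a2 * σ t + a3 * σ (σ t) + b1 * (t * σ t) + b2 * (σ t * σ (σ t)) +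
      b3 * (t * σ (σ t)) + c * nrm σ t = 0) :
    a1 = 0 ∧ b3 = 0 ∧ c = 0 ∧ b2 = 0 := by
  classical
  let P : Polynomial K := Polynomial.monomial 1 a1 + Polynomial.monomial q a2 + Polynomial.monomial (q * q) a3 +
    Polynomial.monomial (1 + q) b1 + Polynomial.monomial (q + q * q) b2 + Polynomial.monomial (1 + q * q) b3 +
    Polynomial.monomial (1 + q + q * q) c
  have hPeval : ∀ t, P.eval t = 0 := fun t => by
    refine Eq.trans ?_ (h t)
    simp only [P, Polynomial.eval_add, Polynomial.eval_monomial, nrm, hpow, ← pow_mul, pow_add, pow_one]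
  have h2 : 2 * q ≤ q * q := Nat.mul_le_mul_right q hq
  have h3 : 1 + q + q * q < Fintype.card K := by
    rw [hK, show q ^ 3 = q * q * q by ring]
    have : 2 * (q * q) ≤ q * (q * q) := Nat.mul_le_mul_right _ hq
    nlinarith
  have hdeg : P.natDegree < Fintype.card K := by
    refine lt_of_le_of_lt ?_ h3
    simp only [P]
    repeat' apply Polynomial.natDegree_add_le_of_degree_le
    all_goals refine (Polynomial.natDegree_monomial_le _).trans ?_
    all_goals omega
  have hP0 : P = 0 :=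
    Polynomial.eq_zero_of_natDegree_lt_card_of_eval_eq_zero P Function.injective_id hPeval hdeg
  have key : ∀ n, P.coeff n = 0 := fun n => by rw [hP0, Polynomial.coeff_zero]
  simp only [P, Polynomial.coeff_add, Polynomial.coeff_monomial] at key
  refine ⟨?_, ?_, ?_, ?_⟩
  · have := key 1
    rw [if_pos rfl, if_neg (by omega), if_neg (by omega), if_neg (by omega), if_neg (by omega),
      if_neg (by omega), if_neg (by omega)] at this
    simpa using this
  · have := key (1 + q * q)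
    rw [if_pos rfl, if_neg (by omega), if_neg (by omega), if_neg (by omega), if_neg (by omega),
      if_neg (by omega), if_neg (by omega)] at this
    simpa using this
  · have := key (1 + q + q * q)
    rw [if_pos rfl, if_neg (by omega), if_neg (by omega), if_neg (by omega), if_neg (by omega),
      if_neg (by omega), if_neg (by omega)] at this
    simpa using this
  · have := key (q + q * q)
    rw [if_pos rfl, if_neg (by omega), if_neg (by omega), if_neg (by omega), if_neg (by omega),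
      if_neg (by omega), if_neg (by omega)] at this
    simpa using this

theorem exists_trc_ne : ∃ t : K, trc σ t ≠ 0 := by
  by_contra h
  push Not at h
  obtain ⟨h1, -⟩ := coeff_eq_zero hq hK hpow 1 1 1 0 0 0 0 fun t => by
    have := h t
    simp only [trc] at this
    linear_combination this
  exact one_ne_zero h1

theorem pair_nondeg {x : Md σ} (ψ : AddChar K ℂ) (hψ : ψ 1 ≠ 1) (h : ∀ m, ψ (pair σ x m) = 1) : x = 0 := by
  obtain ⟨t0, ht0⟩ := exists_trc_ne (σ := σ) hq hK hpow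
  have hσ' : ∀ a : ↥(Fx σ), σ (a : K) = a := fx_apply
  have key : ∀ B : K, (∀ s, ψ (trc σ (B * s)) = 1) → B = 0 := by
    intro B hB
    by_contra hne
    apply hψ
    have hs := hB (t0 * (trc σ t0)⁻¹ * B⁻¹)
    rw [show B * (t0 * (trc σ t0)⁻¹ * B⁻¹) = t0 * (trc σ t0)⁻¹ by field_simp] at hs
    have hc : σ (trc σ t0) = trc σ t0 := by
      have h3 : σ (σ (σ t0)) = t0 := by
        rw [hpow, hpow, hpow, ← pow_mul, ← pow_mul,
          show q * (q * q) = Fintype.card K by rw [hK]; ring, FiniteField.pow_card]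
      simp [trc, h3]; ring
    have e : trc σ (t0 * (trc σ t0)⁻¹) = 1 := by
      conv_lhs => rw [trc]
      simp only [map_mul, map_inv₀, hc]
      rw [← add_mul, ← add_mul]
      exact mul_inv_cancel₀ ht0
    rwa [e] at hs
  have keyF : ∀ A : ↥(Fx σ), (∀ r : ↥(Fx σ), ψ ((A : K) * r) = 1) → A = 0 := by
    intro A hA
    by_contra hne
    apply hψ
    have := hA A⁻¹
    rwa [Subfield.coe_inv, mul_inv_cancel₀ (fun e => hne (Subtype.ext e))] at this
  obtain ⟨A, B, C, D⟩ := x
  refine Prod.ext (keyF A fun r => ?_) (Prod.ext (key B fun s => ?_) (Prod.ext (key C fun u => ?_) (keyF D fun v => ?_)))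
  · simpa [pair, trc] using h (r, 0, 0, 0)
  · simpa [pair, trc] using h (0, s, 0, 0)
  · simpa [pair, trc] using h (0, 0, u, 0)
  · simpa [pair, trc] using h (0, 0, 0, v)

theorem card_Fx : Nat.card ↥(Fx σ) = q :=
  (Nat.card_congr (Equiv.subtypeEquivRight fun t => by
    show σ t = t ↔ t ^ q = t
    rw [hpow])).trans (card_fixed (K := K) hq hK)

theorem card_norm_one : Nat.card {v : Kˣ // v ^ (q ^ 2 + q + 1) = 1} = q ^ 2 + q + 1 := by
  refine card_pow_eq_one_of_dvd ⟨q - 1, ?_⟩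
  rw [hK]
  obtain ⟨k, rfl⟩ : ∃ k, q = k + 1 := ⟨q - 1, by omega⟩
  simp only [Nat.add_sub_cancel]
  apply Nat.sub_eq_of_eq_add
  ring

theorem nrm_eq_pow (v : K) : nrm σ v = v ^ (q ^ 2 + q + 1) := by
  simp only [nrm, hpow, ← pow_mul, ← pow_succ', ← pow_add]
  congr 1
  ring

/-- The norm is onto. -/
theorem exists_nrm {a : K} (ha : σ a = a) (ha0 : a ≠ 0) : ∃ v : K, v ≠ 0 ∧ nrm σ v = a := by
  classical
  set n := q ^ 2 + q + 1
  let f : Kˣ →* Kˣ := powMonoidHom n
  let H : Subgroup Kˣ := (powMonoidHom (q - 1) : Kˣ →* Kˣ).ker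
  have hq3 : q ^ 3 - 1 = (q - 1) * n := by
    obtain ⟨k, rfl⟩ : ∃ k, q = k + 1 := ⟨q - 1, by omega⟩
    simp only [n, Nat.add_sub_cancel]
    apply Nat.sub_eq_of_eq_add
    ring
  have hcard : Nat.card Kˣ = (q - 1) * n := by rw [Nat.card_units, Nat.card_eq_fintype_card, hK, hq3]
  have hle : f.range ≤ H := by
    rintro _ ⟨u, rfl⟩
    show (u ^ n) ^ (q - 1) = 1
    rw [← pow_mul, mul_comm, ← hcard, pow_card_eq_one']
  have h1 : Nat.card ↥f.range * n = (q - 1) * n := by
    conv_rhs => rw [← hcard, Subgroup.card_eq_card_quotient_mul_card_subgroup f.ker]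
    rw [Nat.card_congr (QuotientGroup.quotientKerEquivRange f).toEquiv]
    congr 1
    exact (card_norm_one (σ := σ) hq hK hpow).symm.trans (Nat.card_congr (Equiv.subtypeEquivRight fun u => Iff.rfl))
  have h2 : Nat.card ↥H = q - 1 := by
    rw [← card_pow_eq_one_of_dvd (K := K) (n := q - 1) ⟨n, by rw [hK, hq3]⟩]
    exact Nat.card_congr (Equiv.subtypeEquivRight fun u => Iff.rfl)
  have heq : f.range = H := Subgroup.eq_of_le_of_card_ge hle
    (by rw [h2]; exact (Nat.eq_of_mul_eq_mul_right (by positivity) h1).ge)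
  have hu : Units.mk0 a ha0 ∈ H := by
    show Units.mk0 a ha0 ^ (q - 1) = 1
    rw [hpow] at ha
    refine Units.ext (mul_left_cancel₀ ha0 ?_)
    rw [Units.val_pow_eq_pow_val, Units.val_mk0, Units.val_one, mul_one, ← pow_succ',
      show q - 1 + 1 = q by omega, ha]
  rw [← heq] at hu
  obtain ⟨v, hv⟩ := hu
  refine ⟨(v : K), v.ne_zero, ?_⟩
  rw [nrm_eq_pow hq hK hpow]
  simpa [f, n] using congrArg Units.val hv

/-- Small orbits do not exist. -/
theorem card_le_of_closed (S : Set (Md σ)) (hne : S.Nonempty) (h0 : (0 : Md σ) ∉ S)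
    (hp : ∀ t, ∀ x ∈ S, fp hσ t x ∈ S) (hn : ∀ t, ∀ x ∈ S, fn hσ t x ∈ S)
    (ht : ∀ v : K, v ≠ 0 → ∀ x ∈ S, ft hσ v x ∈ S) : (q ^ 3 + 1) * (q - 1) ≤ S.ncard := by
  classical
  have hKc : Nat.card K = q ^ 3 := by rw [Nat.card_eq_fintype_card, hK]
  have hq3 : 1 ≤ q ^ 3 := Nat.one_le_pow _ _ (by omega)
  have hFsub : Nat.card {a : ↥(Fx σ) // a ≠ 0} = q - 1 := by
    have := Set.ncard_compl ({0} : Set ↥(Fx σ))
    rw [Set.ncard_singleton, card_Fx hq hK hpow] at this
    exact (Nat.card_coe_set_eq _).trans this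
  have hfn : ∀ (x : Md σ) (b : K), x.1 ≠ 0 →
      ∃ y ∈ ({fn hσ ((x.2.1 - b) / x.1) x} : Set (Md σ)), y.1 = x.1 ∧ y.2.1 = b := fun x b hx => by
    refine ⟨_, rfl, rfl, ?_⟩
    show x.2.1 - x.1 * ((x.2.1 - b) / x.1) = b
    rw [mul_div_cancel₀ _ (fun e => hx (Subtype.ext e))]; ring
  have hA : ∀ x ∈ S, ∀ a : ↥(Fx σ), x.1 ≠ 0 → a ≠ 0 → ∃ v : K, v ≠ 0 ∧ (ft hσ v x).1 = a := by
    intro x _ a hx ha
    obtain ⟨v, hv0, hv⟩ := exists_nrm (σ := σ) hq hK hpow (a := (x.1 : K) / a)
      (by rw [map_div₀, fx_apply, fx_apply])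
      (div_ne_zero (fun e => hx (Subtype.ext e)) fun e => ha (Subtype.ext e))
    refine ⟨v, hv0, Subtype.ext ?_⟩
    show (x.1 : K) * (nrm σ v)⁻¹ = a
    rw [hv, inv_div, mul_div_cancel₀ _ (fun e => hx (Subtype.ext e))]
  obtain ⟨x0, hx0⟩ := hne
  obtain ⟨x1, hx1, hA1⟩ : ∃ x ∈ S, x.1 ≠ 0 := by
    by_contra hall
    push Not at hall
    obtain ⟨A, B, C, D⟩ := x0
    have hA0 : A = 0 := hall _ hx0
    obtain ⟨e1, e2, e3, -⟩ := coeff_eq_zero hq hK hpow B (σ B) (σ (σ B)) (σ C) (σ (σ C)) C (D : K) fun t => by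
      have := congrArg Subtype.val (hall _ (hp t _ hx0))
      simp only [fp, trF, nrF, trc, Subfield.coe_sub, Subfield.coe_mul, Subfield.coe_zero, hA0, map_mul, hσ] at this
      linear_combination -this
    exact h0 (by
      have e3' : D = 0 := Subtype.ext e3
      rw [hA0, e1, e2, e3'] at hx0
      exact hx0)
  by_cases hz : ∃ x ∈ S, x.1 = 0
  · obtain ⟨⟨A, B, C, D⟩, hy, hyA⟩ := hz
    obtain ⟨y, hy', hy'A, hy'D⟩ : ∃ y ∈ S, y.1 = 0 ∧ y.2.2.2 ≠ 0 := by
      by_contra hall
      push Not at hall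
      have hA0 : A = 0 := hyA
      have hD : D = 0 := hall _ hy hA0
      obtain ⟨e1, e2, e3, e4⟩ := coeff_eq_zero hq hK hpow (σ (σ C)) C (σ C) (σ (σ B)) B (σ B) 0 fun t => by
        have := congrArg Subtype.val (hall _ (hn t _ hy) hA0)
        simp only [fn, trF, nrF, trc, Subfield.coe_sub, Subfield.coe_add, Subfield.coe_mul, Subfield.coe_zero,
          hA0, hD, map_mul, hσ] at this
        linear_combination this
      exact h0 (by
        have eC : C = 0 := by simpa using congrArg σ e1 |>.trans (map_zero σ) |> (hσ C).symm.trans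
        rw [hA0, hD, eC, e4] at hy
        exact hy)
    let g : {a : ↥(Fx σ) // a ≠ 0} × K ⊕ {a : ↥(Fx σ) // a ≠ 0} → ↥S := Sum.elim
      (fun p => ⟨fn hσ (((ft hσ (hA x1 hx1 p.1 hA1 p.1.2).choose x1).2.1 - p.2) /
          (ft hσ (hA x1 hx1 p.1 hA1 p.1.2).choose x1).1) (ft hσ (hA x1 hx1 p.1 hA1 p.1.2).choose x1),
        hn _ _ (ht _ (hA x1 hx1 p.1 hA1 p.1.2).choose_spec.1 _ hx1)⟩)
      (fun d => ⟨ft hσ (exists_nrm (σ := σ) hq hK hpow (a := (d.1 : K) / y.2.2.2)
          (by rw [map_div₀, fx_apply, fx_apply])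
          (div_ne_zero (fun e => d.2 (Subtype.ext e)) fun e => hy'D (Subtype.ext e))).choose y,
        ht _ (exists_nrm (σ := σ) hq hK hpow (a := (d.1 : K) / y.2.2.2)
          (by rw [map_div₀, fx_apply, fx_apply])
          (div_ne_zero (fun e => d.2 (Subtype.ext e)) fun e => hy'D (Subtype.ext e))).choose_spec.1 _ hy'⟩)
    have gA : ∀ p, (g (Sum.inl p)).1.1 = p.1.1 ∧ (g (Sum.inl p)).1.2.1 = p.2 := fun p => by
      have h1 := (hA x1 hx1 p.1 hA1 p.1.2).choose_spec.2
      obtain ⟨z, hz1, hz2, hz3⟩ := hfn (ft hσ (hA x1 hx1 p.1 hA1 p.1.2).choose x1) p.2 (by rw [h1]; exact p.1.2)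
      rw [Set.mem_singleton_iff] at hz1
      subst hz1
      exact ⟨hz2.trans h1, hz3⟩
    have gD : ∀ d, (g (Sum.inr d)).1.1 = 0 ∧ (g (Sum.inr d)).1.2.2.2 = d.1 := fun d => by
      refine ⟨?_, Subtype.ext ?_⟩
      · show y.1 * _ = 0
        rw [hy'A, zero_mul]
      · have h2 := (exists_nrm (σ := σ) hq hK hpow (a := (d.1 : K) / y.2.2.2)
          (by rw [map_div₀, fx_apply, fx_apply])
          (div_ne_zero (fun e => d.2 (Subtype.ext e)) fun e => hy'D (Subtype.ext e))).choose_spec.2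
        show (y.2.2.2 : K) * nrm σ _ = d.1
        rw [h2, mul_div_cancel₀ _ (fun e => hy'D (Subtype.ext e))]
    have ginj : Function.Injective g := by
      rintro (p | d) (p' | d') e
      · exact congrArg Sum.inl (Prod.ext (Subtype.ext ((gA p).1.symm.trans (by rw [e, (gA p').1])))
          ((gA p).2.symm.trans (by rw [e, (gA p').2])))
      · exact absurd ((gA p).1.symm.trans (by rw [e, (gD d').1])) p.1.2
      · exact absurd ((gA p').1.symm.trans (by rw [← e, (gD d).1])) p'.1.2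
      · exact congrArg Sum.inr (Subtype.ext ((gD d).2.symm.trans (by rw [e, (gD d').2])))
    have hle := Nat.card_le_card_of_injective g ginj
    rw [Nat.card_sum, Nat.card_prod, hFsub, hKc, Nat.card_coe_set_eq] at hle
    linarith
  · push Not at hz
    by_cases htwo : ∃ x ∈ S, ∃ x' ∈ S, x.1 = x'.1 ∧ x.2.1 = 0 ∧ x'.2.1 = 0 ∧ x ≠ x'
    · obtain ⟨x, hx, x', hx', hxA, hxB, hx'B, hxne⟩ := htwo
      let z : Bool → Md σ := fun b => bif b then x' else x
      have hz' : ∀ b, z b ∈ S ∧ (z b).1 = x.1 ∧ (z b).2.1 = 0 := fun b => by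
        cases b
        · exact ⟨hx, rfl, hxB⟩
        · exact ⟨hx', hxA.symm, hx'B⟩
      let v : {a : ↥(Fx σ) // a ≠ 0} → K := fun a => (hA x hx a (hz x hx) a.2).choose
      have hv : ∀ a, v a ≠ 0 ∧ (ft hσ (v a) x).1 = a.1 := fun a => (hA x hx a (hz x hx) a.2).choose_spec
      have hfA : ∀ a b, (ft hσ (v a) (z b)).1 = a.1 := fun a b => by
        show (z b).1 * _ = _
        rw [(hz' b).2.1]
        exact (hv a).2
      have hfB : ∀ a b, (ft hσ (v a) (z b)).2.1 = 0 := fun a b => by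
        show (z b).2.1 * _ = 0
        rw [(hz' b).2.2, zero_mul]
      let g : ({a : ↥(Fx σ) // a ≠ 0} × K) × Bool → ↥S := fun p =>
        ⟨fn hσ (-p.1.2 / p.1.1.1) (ft hσ (v p.1.1) (z p.2)), hn _ _ (ht _ (hv _).1 _ (hz' p.2).1)⟩
      have gB : ∀ p, (g p).1.2.1 = p.1.2 := fun p => by
        show (ft hσ (v p.1.1) (z p.2)).2.1 - (ft hσ (v p.1.1) (z p.2)).1 * (-p.1.2 / p.1.1.1) = _
        rw [hfA, hfB, mul_div_cancel₀ _ (fun e => p.1.1.2 (Subtype.ext e))]; ring
      have ginj : Function.Injective g := by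
        rintro ⟨⟨a, b⟩, c⟩ ⟨⟨a', b'⟩, c'⟩ e
        have ea : a = a' := Subtype.ext (by
          have h1 : (g ((a, b), c)).1.1 = a.1 := hfA a c
          have h2 : (g ((a', b'), c')).1.1 = a'.1 := hfA a' c'
          rw [← h1, ← h2, e])
        subst ea
        have eb : b = b' := (gB ((a, b), c)).symm.trans (by rw [e]; exact gB ((a, b'), c'))
        subst eb
        have e' : ft hσ (v a) (z c) = ft hσ (v a) (z c') := by
          have e2 := congrArg Subtype.val e
          simp only [g] at e2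
          have hinj : ∀ (t : K) (y y' : Md σ), y.1 = y'.1 → y.2.1 = y'.2.1 → fn hσ t y = fn hσ t y' → y = y' := by
            rintro t ⟨A, B, C, D⟩ ⟨A', B', C', D'⟩ rfl rfl e3
            simp only [fn, Prod.mk.injEq] at e3
            obtain ⟨-, -, e4, e5⟩ := e3
            have hC : C = C' := by simpa using e4
            subst hC
            simp at e5
            rw [e5]
          exact hinj _ _ _ ((hfA a c).trans (hfA a c').symm) ((hfB a c).trans (hfB a c').symm) e2
        have hzz : z c = z c' := by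
          have h2 := nrF_ne_zero hσ (hv a).1
          have h3 : nrm σ (v a) ≠ 0 := fun e => h2 (Subtype.ext e)
          simp only [ft, Prod.mk.injEq] at e'
          obtain ⟨e1, -, e3, e4⟩ := e'
          refine Prod.ext (mul_right_cancel₀ (inv_ne_zero h2) e1) (Prod.ext ((hz' c).2.2.trans (hz' c').2.2.symm)
            (Prod.ext (mul_right_cancel₀ (div_ne_zero h3 (pow_ne_zero _ ((map_ne_zero σ).2 (hv a).1))) e3)
              (mul_right_cancel₀ h2 e4)))
        cases c <;> cases c'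
        · rfl
        · exact absurd hzz hxne
        · exact absurd hzz.symm hxne
        · rfl
      have hle := Nat.card_le_card_of_injective g ginj
      rw [Nat.card_prod, Nat.card_prod, hFsub, hKc, Nat.card_coe_set_eq, Nat.card_eq_fintype_card,
        Fintype.card_bool] at hle
      have h5 : q ^ 3 * (q - 1) ≥ q - 1 := Nat.le_mul_of_pos_left _ (by omega)
      linarith
    · push Not at htwo
      exfalso
      obtain ⟨⟨A, B, C, D⟩, hx, hxA, hxB⟩ : ∃ x ∈ S, x.1 ≠ 0 ∧ x.2.1 = 0 := by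
        obtain ⟨z, hz1, hz2, hz3⟩ := hfn x1 0 hA1
        rw [Set.mem_singleton_iff] at hz1
        subst hz1
        exact ⟨_, hn _ _ hx1, by rw [hz2]; exact hA1, hz3⟩
      simp only at hxA hxB
      subst hxB
      have hAK : (A : K) ≠ 0 := fun e => hxA (Subtype.ext e)
      obtain ⟨v, hv1, hv2⟩ : ∃ v : K, nrm σ v = 1 ∧ v ^ 2 ≠ 1 := by
        have hc := card_norm_one (σ := σ) hq hK hpow
        have : 1 < Nat.card {v : Kˣ // v ^ (q ^ 2 + q + 1) = 1} := by rw [hc]; nlinarith
        obtain ⟨⟨v, hv⟩, hne⟩ : ∃ u : {v : Kˣ // v ^ (q ^ 2 + q + 1) = 1}, u ≠ ⟨1, one_pow _⟩ := by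
          by_contra hall
          push Not at hall
          have : Subsingleton {v : Kˣ // v ^ (q ^ 2 + q + 1) = 1} := ⟨fun a b => (hall a).trans (hall b).symm⟩
          have := Finite.card_le_one_iff_subsingleton.2 this
          omega
        refine ⟨(v : K), ?_, fun hsq => hne (Subtype.ext ?_)⟩
        · rw [nrm_eq_pow hq hK hpow, ← Units.val_pow_eq_pow_val, hv, Units.val_one]
        · have hv2 : v ^ 2 = 1 := Units.ext (by rw [Units.val_pow_eq_pow_val, hsq, Units.val_one])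
          have ho : Odd (q ^ 2 + q + 1) := by
            rcases Nat.even_or_odd q with ⟨k, rfl⟩ | ⟨k, rfl⟩
            · exact ⟨2 * k * k + k, by ring⟩
            · exact ⟨2 * k * k + 3 * k + 1, by ring⟩
          obtain ⟨k, hk⟩ := ho
          rw [hk, pow_succ, pow_mul, hv2, one_pow, one_mul] at hv
          exact hv
      have hv0 : v ≠ 0 := by rintro rfl; simp [nrm] at hv1
      have hfix := htwo _ (ht v hv0 _ hx) _ hx (Subtype.ext (by simp [ft, nrF, hv1])) (by simp [ft]) rfl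
      have hC : C = 0 := by
        have h1 := congrArg (fun y => y.2.2.1) hfix
        simp only [ft, hv1] at h1
        by_contra hC
        apply hv2
        have h4 : (σ v ^ 2)⁻¹ = 1 := mul_left_cancel₀ hC (by rw [mul_one]; simpa [one_div] using h1)
        rw [inv_eq_one, ← map_pow] at h4
        exact σ.injective (h4.trans (map_one σ).symm)
      subst hC
      by_cases hD : D = 0
      · subst hD
        have h1 := hn 1 _ hx
        refine hz _ (hp (-1) _ h1) (Subtype.ext ?_)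
        simp [fp, fn, trF, nrF, trc, nrm]
        ring
      · obtain ⟨t, -, ht'⟩ := exists_nrm (σ := σ) hq hK hpow (a := (A : K) / D)
          (by rw [map_div₀, fx_apply, fx_apply]) (div_ne_zero hAK fun e => hD (Subtype.ext e))
        refine hz _ (hp t _ hx) (Subtype.ext ?_)
        simp [fp, trF, nrF, trc]
        rw [ht', mul_div_cancel₀ _ (fun e => hD (Subtype.ext e)), sub_self]

end Fin

end Cfsg.Agent.D4Deg
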