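import Cfsg.Agent.D4Deg.Cubic
import Cfsg.Agent.ChevTw.TwD4Thms
import Cfsg.Agent.ChevTw.TwPerfect
import Mathlib.GroupTheory.NoncommPiCoprod

/-!
# The unipotent radical `q^(1+8)` of ³D₄(q) modulo its centre
-/

set_option autoImplicit false
set_option linter.unusedSectionVars false

namespace Cfsg.Agent.D4Deg

open Cfsg.Lie Cfsg.Agent.ChevGrp Cfsg.Agent.ChevTw

/-- The six roots of the short simple orbit and its negative. -/
def L6 : Fin 6 → ℕ := ![18, 13, 12, 5, 10, 11]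

/-- The eight roots of the radical outside the highest one. -/
def L8 : Fin 8 → ℕ := ![14, 15, 16, 17, 19, 20, 21, 22]

/-- The commutator targets. -/
def tgt : Fin 6 → Fin 8 → Option (Fin 8 × ℤ) :=
  ![![some (4, -1), some (5, -1), some (6, -1), some (7, -1), none, none, none, none],
    ![some (2, 1), some (3, 1), none, none, some (6, 1), some (7, 1), none, none],
    ![some (1, 1), none, some (3, 1), none, some (5, 1), none, some (7, 1), none],
    ![none, none, none, none, some (0, -1), some (1, -1), some (2, -1), some (3, -1)],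
    ![none, none, some (0, 1), some (1, 1), none, none, some (4, 1), some (5, 1)],
    ![none, some (0, 1), none, some (2, 1), none, some (4, 1), none, some (6, 1)]]

/-- The coefficient table of the eight roots. -/
def cartRow : Fin 4 → Fin 8 → ℤ :=
  ![![-1, -1, -1, -1, 1, 1, 1, 1], ![2, 1, 1, 0, 1, 0, 0, -1], ![-1, -1, 1, 1, -1, -1, 1, 1],
    ![-1, 1, -1, 1, -1, 1, -1, 1]]

theorem data8 : (∀ i, L8 i < chevD4.nroots ∧ chevD4.IsPosRoot (L8 i)) ∧ (∀ e, L6 e < chevD4.nroots) ∧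
    (23 < chevD4.nroots ∧ chevD4.IsPosRoot 23) ∧
    (∀ i, (23 : ℕ) ≠ L8 i ∧ 23 ≠ chevD4.neg (L8 i) ∧ chevD4.commTerms (L8 i) 23 = []) ∧
    (∀ e, (23 : ℕ) ≠ L6 e ∧ 23 ≠ chevD4.neg (L6 e) ∧ chevD4.commTerms (L6 e) 23 = []) := by
  decide +kernel

theorem data88 : ∀ i j : Fin 8, i = j ∨ (L8 j ≠ L8 i ∧ L8 j ≠ chevD4.neg (L8 i) ∧
    ∀ c ∈ chevD4.commTerms (L8 i) (L8 j), c.1 = 23) := by decide +kernel

theorem data68a : ∀ (e : Fin 6) (i : Fin 8), L8 i ≠ L6 e ∧ L8 i ≠ chevD4.neg (L6 e) ∧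
    chevD4.commTerms (L6 e) (L8 i) = (tgt e i).elim [] (fun p => [(L8 p.1, p.2, 1, 1)]) := by
  decide +kernel

theorem data68b : ∀ (e : Fin 6) (i j : Fin 8), (tgt e i).map Prod.fst = some j → tgt e j = none := by
  decide +kernel

theorem dataCart4 : ∀ (j : Fin 4) (i : Fin 8), chevD4.cartan j.val (L8 i) = cartRow j i := by decide +kernel

theorem dataCart (j : Fin chevD4.rank) (i : Fin 8) : chevD4.cartan j (L8 i) = cartRow j i := dataCart4 j i

theorem dataCart23 : ∀ j : Fin chevD4.rank, chevD4.cartan j 23 = ([0, 1, 0, 0] : List ℤ).getD j.val 0 := by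
  decide +kernel

theorem dataSgn : (twD4.root 14 = 14 ∧ twD4.root 22 = 22 ∧ twD4.root 23 = 23) ∧
    (twD4.root 19 = 16 ∧ twD4.root 16 = 15 ∧ twD4.root 15 = 19) ∧
    (twD4.root 20 = 21 ∧ twD4.root 21 = 17 ∧ twD4.root 17 = 20) ∧
    (symD4.sgn 14 = 1 ∧ symD4.sgn 22 = 1 ∧ symD4.sgn 23 = 1) ∧
    (symD4.sgn 19 = -1 ∧ symD4.sgn 16 = 1 ∧ symD4.sgn 15 = -1) ∧
    (symD4.sgn 20 = 1 ∧ symD4.sgn 21 = -1 ∧ symD4.sgn 17 = -1) := by decide +kernel

theorem dataA : ∀ a ∈ ([19, 16, 15, 20, 21, 17, 22, 23] : List ℕ), a < chevD4.nroots ∧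
    ∀ b ∈ ([19, 16, 15, 20, 21, 17, 22, 23] : List ℕ), a = b ∨ (b ≠ a ∧ b ≠ chevD4.neg a ∧
      chevD4.commTerms a b = if (a, b) = (19, 17) then [(23, -1, 1, 1)] else
        if (a, b) = (16, 20) then [(23, -1, 1, 1)] else if (a, b) = (15, 21) then [(23, -1, 1, 1)] else
        if (a, b) = (17, 19) then [(23, 1, 1, 1)] else
        if (a, b) = (20, 16) then [(23, 1, 1, 1)] else if (a, b) = (21, 15) then [(23, 1, 1, 1)] else []) := by
  decide +kernel

theorem data14 : ∀ b ∈ ([20, 21, 17, 22, 23] : List ℕ), b < chevD4.nroots ∧ b ≠ 14 ∧ b ≠ chevD4.neg 14 ∧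
    chevD4.commTerms 14 b = if b = 22 then [(23, 1, 1, 1)] else [] := by decide +kernel

theorem dataN : chevD4.simple 1 = 14 ∧ chevD4.neg 14 = 9 ∧ act chevD4 [⟨1, by decide⟩] 22 = 23 := by decide +kernel

section

variable {K : Type*} [Field K] [Fintype K] {q : ℕ} (hq : IsPrimePow q) (hK : Fintype.card K = q ^ 3)

local notation "σ" => frobD4 hq hK
local notation "GK" => GL chevD4.Idx K

theorem sig3 (x : K) : σ (σ (σ x)) = x := by
  simp only [frobD4_apply, ← pow_mul]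
  rw [show q * q * q = q ^ 3 by ring, ← hK, FiniteField.pow_card]

/-- The root elements. -/
noncomputable abbrev X (K : Type*) [Field K] : ℕ → K → GL chevD4.Idx K := (glSys (rulesD4 K)).x

/-- Moving a root element past another. -/
theorem swap_x {r s : ℕ} (hr : r < chevD4.nroots) (hs : s < chevD4.nroots) (h1 : s ≠ r) (h2 : s ≠ chevD4.neg r)
    {c : ℕ} {C : ℤ} (h : chevD4.commTerms r s = [(c, C, 1, 1)]) (hc : c < chevD4.nroots) (t u : K) :
    X K r t * X K s u * X K c (-((C : K) * t * u)) = X K s u * X K r t := by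
  have e := (glSys (rulesD4 K)).comm r hr s hs h1 h2 t u
  simp only [ChevalleyDatum.commWord, h, List.map_cons, List.map_nil, List.prod_cons, List.prod_nil, mul_one,
    pow_one] at e
  rw [e]
  congr 2
  ring

theorem conj_x {r s : ℕ} (hr : r < chevD4.nroots) (hs : s < chevD4.nroots) (h1 : s ≠ r) (h2 : s ≠ chevD4.neg r)
    {c : ℕ} {C : ℤ} (h : chevD4.commTerms r s = [(c, C, 1, 1)]) (hc : c < chevD4.nroots)
    (hcomm : ∀ a b : K, Commute (X K r a) (X K c b)) (t u : K) :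
    X K r t * X K s u * (X K r t)⁻¹ = X K s u * X K c ((C : K) * t * u) := by
  have e := swap_x hr hs h1 h2 h hc t u
  have hi : X K c (-((C : K) * t * u)) = (X K c ((C : K) * t * u))⁻¹ := ((glSys (rulesD4 K)).x_inv hc _).symm
  rw [hi, mul_inv_eq_iff_eq_mul] at e
  rw [e, mul_assoc (X K s u), (hcomm t _).eq]
  simp [mul_assoc]

theorem conj_x_nil {r s : ℕ} (hr : r < chevD4.nroots) (hs : s < chevD4.nroots) (h1 : s ≠ r) (h2 : s ≠ chevD4.neg r)
    (h : chevD4.commTerms r s = []) (t u : K) : X K r t * X K s u * (X K r t)⁻¹ = X K s u := by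
  rw [(x_commute (glSys (rulesD4 K)) hr hs h1 h2 h t u).eq, mul_inv_cancel_right]

variable (K) in
/-- The centraliser of the highest root group. -/
def CC : Subgroup (GL chevD4.Idx K) := Subgroup.centralizer {g | ∃ u : K, g = X K 23 u}

theorem commute23 {r : ℕ} (hr : r < chevD4.nroots) (h1 : 23 ≠ r) (h2 : 23 ≠ chevD4.neg r)
    (h : chevD4.commTerms r 23 = []) (t : K) : X K r t ∈ CC K := by
  rw [CC, Subgroup.mem_centralizer_iff]
  rintro _ ⟨u, rfl⟩
  exact ((x_commute (glSys (rulesD4 K)) hr data8.2.2.1.1 h1 h2 h t u).eq).symm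

theorem x8_mem (i : Fin 8) (t : K) : X K (L8 i) t ∈ CC K :=
  commute23 (data8.1 i).1 (data8.2.2.2.1 i).1 (data8.2.2.2.1 i).2.1 (data8.2.2.2.1 i).2.2 t

theorem x6_mem (e : Fin 6) (t : K) : X K (L6 e) t ∈ CC K :=
  commute23 (data8.2.1 e) (data8.2.2.2.2 e).1 (data8.2.2.2.2 e).2.1 (data8.2.2.2.2 e).2.2 t

theorem x23_commute (t u : K) : Commute (X K 23 t) (X K 23 u) := by
  show X K 23 t * X K 23 u = X K 23 u * X K 23 t
  rw [(glSys (rulesD4 K)).x_add 23 data8.2.2.1.1, (glSys (rulesD4 K)).x_add 23 data8.2.2.1.1, add_comm]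

theorem x23_mem (t : K) : X K 23 t ∈ CC K := by
  rw [CC, Subgroup.mem_centralizer_iff]
  rintro _ ⟨u, rfl⟩
  exact (x23_commute u t).eq

theorem x23_add (t u : K) : X K 23 t * X K 23 u = X K 23 (t + u) :=
  (glSys (rulesD4 K)).x_add 23 data8.2.2.1.1 t u

theorem x23_zero : X K 23 (0 : K) = 1 := (glSys (rulesD4 K)).x_zero data8.2.2.1.1

variable (K) in
/-- The highest root group inside its centraliser. -/
noncomputable def ZZ : Subgroup ↥(CC K) where
  carrier := {g | ∃ u : K, (g : GL chevD4.Idx K) = X K 23 u}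
  one_mem' := ⟨0, ((glSys (rulesD4 K)).x_zero data8.2.2.1.1).symm⟩
  mul_mem' := by
    rintro a b ⟨u, hu⟩ ⟨v, hv⟩
    exact ⟨u + v, by rw [Subgroup.coe_mul, hu, hv, (glSys (rulesD4 K)).x_add 23 data8.2.2.1.1]⟩
  inv_mem' := by
    rintro a ⟨u, hu⟩
    exact ⟨-u, by rw [Subgroup.coe_inv, hu, (glSys (rulesD4 K)).x_inv data8.2.2.1.1]⟩

theorem commute_zz {g z : ↥(CC K)} (hz : z ∈ ZZ K) : g * z = z * g := by
  obtain ⟨u, hu⟩ := hz
  apply Subtype.ext
  rw [Subgroup.coe_mul, Subgroup.coe_mul, hu]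
  exact ((Subgroup.mem_centralizer_iff.1 g.2) _ ⟨u, rfl⟩).symm

instance zzNormal : (ZZ K).Normal := ⟨fun n hn g => by rw [commute_zz hn, mul_inv_cancel_right]; exact hn⟩

variable (K) in
/-- The centraliser modulo the highest root group. -/
abbrev CB := ↥(CC K) ⧸ ZZ K

/-- The images of the root elements. -/
noncomputable def y8 (i : Fin 8) (t : K) : CB K := QuotientGroup.mk ⟨X K (L8 i) t, x8_mem i t⟩

/-- The images of the short root elements. -/
noncomputable def y6 (e : Fin 6) (t : K) : CB K := QuotientGroup.mk ⟨X K (L6 e) t, x6_mem e t⟩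

theorem y8_add (i : Fin 8) (t u : K) : y8 i t * y8 i u = y8 i (t + u) := by
  rw [y8, y8, ← QuotientGroup.mk_mul]
  exact congrArg QuotientGroup.mk (Subtype.ext ((glSys (rulesD4 K)).x_add _ (data8.1 i).1 t u))

theorem y8_commute (i j : Fin 8) (t u : K) : Commute (y8 i t) (y8 j u) := by
  rcases data88 i j with rfl | ⟨h1, h2, h3⟩
  · show _ = _
    rw [y8_add, y8_add, add_comm]
  show _ = _
  rw [y8, y8, ← QuotientGroup.mk_mul, ← QuotientGroup.mk_mul, eq_comm, QuotientGroup.eq]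
  have e := (glSys (rulesD4 K)).comm (L8 i) (data8.1 i).1 (L8 j) (data8.1 j).1 h1 h2 t u
  suffices hmem : ∀ w : List (ℕ × K), (∀ p ∈ w, p.1 = 23) → ∃ v, (w.map fun p => X K p.1 p.2).prod = X K 23 v by
    obtain ⟨v, hv⟩ := hmem (chevD4.commWord K (L8 i) (L8 j) t u) (fun p hp => by
      simp only [ChevalleyDatum.commWord, List.mem_map] at hp
      obtain ⟨c, hc, rfl⟩ := hp
      exact h3 c hc)
    refine ⟨-v, ?_⟩
    rw [show X K 23 (-v) = (X K 23 v)⁻¹ from ((glSys (rulesD4 K)).x_inv data8.2.2.1.1 v).symm]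
    show (X K (L8 j) u * X K (L8 i) t)⁻¹ * (X K (L8 i) t * X K (L8 j) u) = (X K 23 v)⁻¹
    rw [e, hv]
    simp [mul_assoc]
  intro w hw
  induction w with
  | nil => exact ⟨0, by simpa using ((glSys (rulesD4 K)).x_zero data8.2.2.1.1).symm⟩
  | cons p w ih =>
    obtain ⟨v, hv⟩ := ih fun p hp => hw p (List.mem_cons_of_mem _ hp)
    refine ⟨p.2 + v, ?_⟩
    rw [List.map_cons, List.prod_cons, hv, hw p List.mem_cons_self, (glSys (rulesD4 K)).x_add 23 data8.2.2.1.1]

/-- One coordinate. -/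
noncomputable def yHom (i : Fin 8) : Multiplicative K →* CB K :=
  MonoidHom.mk' (fun t => y8 i t.toAdd) fun a b => by rw [y8_add]; rfl

/-- The abelian group of the radical modulo its centre. -/
noncomputable def Phi : (Fin 8 → Multiplicative K) →* CB K :=
  MonoidHom.noncommPiCoprod (yHom (K := K)) fun _ _ _ _ _ => y8_commute _ _ _ _

/-- The same with additive coordinates. -/
noncomputable def phi (w : Fin 8 → K) : CB K := Phi fun i => Multiplicative.ofAdd (w i)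

theorem phi_add (v w : Fin 8 → K) : phi (v + w) = phi v * phi w := by
  rw [phi, phi, phi, ← map_mul]; rfl

theorem phi_zero : phi (0 : Fin 8 → K) = 1 := by rw [phi]; exact map_one Phi

theorem phi_single (i : Fin 8) (t : K) : phi (Pi.single i t) = y8 i t := by
  rw [phi, show (fun j => Multiplicative.ofAdd ((Pi.single i t : Fin 8 → K) j)) =
    Pi.mulSingle i (Multiplicative.ofAdd t) from funext fun j => by
      rcases eq_or_ne j i with rfl | h
      · simp
      · simp [h]]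
  exact MonoidHom.noncommPiCoprod_mulSingle _ _ _

/-- The displacement by a short root element. -/
def ext (e : Fin 6) (t : K) (i : Fin 8) (u : K) : Fin 8 → K :=
  (tgt e i).elim 0 fun p => Pi.single p.1 ((p.2 : K) * t * u)

/-- The action of a short root element. -/
def act6 (e : Fin 6) (t : K) (w : Fin 8 → K) : Fin 8 → K := w + ∑ i, ext e t i (w i)

theorem ext_add (e : Fin 6) (t : K) (i : Fin 8) (u v : K) : ext e t i (u + v) = ext e t i u + ext e t i v := by
  rcases h : tgt e i with _ | p <;> simp [ext, h, mul_add, Pi.single_add]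

theorem conj6_single (e : Fin 6) (t : K) (i : Fin 8) (u : K) :
    y6 e t * y8 i u * (y6 e t)⁻¹ = phi (act6 e t (Pi.single i u)) := by
  have h0 : ∀ j, ext e t j (0 : K) = 0 := fun j => by
    rcases h : tgt e j with _ | p <;> simp [ext, h]
  have hs : ∑ j, ext e t j ((Pi.single i u : Fin 8 → K) j) = ext e t i u := by
    rw [Finset.sum_eq_single i]
    · rw [Pi.single_eq_same]
    · intro j _ hj
      rw [Pi.single_eq_of_ne hj, h0]
    · simp
  rw [act6, hs, phi_add, phi_single]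
  obtain ⟨h1, h2, h3⟩ := data68a e i
  rcases h : tgt e i with _ | ⟨j, C⟩
  · rw [h] at h3
    simp only [ext, h, Option.elim_none, phi_zero, mul_one]
    rw [y6, y8, ← QuotientGroup.mk_inv, ← QuotientGroup.mk_mul, ← QuotientGroup.mk_mul]
    exact congrArg QuotientGroup.mk (Subtype.ext (conj_x_nil (data8.2.1 e) (data8.1 i).1 h1 h2 h3 t u))
  · rw [h] at h3
    obtain ⟨g1, g2, g3⟩ := data68a e j
    rw [data68b e i j (by rw [h]; rfl)] at g3
    simp only [ext, h, Option.elim_some, phi_single]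
    rw [y6, y8, y8, ← QuotientGroup.mk_inv, ← QuotientGroup.mk_mul, ← QuotientGroup.mk_mul, ← QuotientGroup.mk_mul]
    exact congrArg QuotientGroup.mk (Subtype.ext (conj_x (data8.2.1 e) (data8.1 i).1 h1 h2 h3 (data8.1 j).1
      (fun a b => x_commute (glSys (rulesD4 K)) (data8.2.1 e) (data8.1 j).1 g1 g2 g3 a b) t u))

theorem act6_add (e : Fin 6) (t : K) (v w : Fin 8 → K) : act6 e t (v + w) = act6 e t v + act6 e t w := by
  simp only [act6, Pi.add_apply, ext_add, Finset.sum_add_distrib]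
  abel

theorem conj6 (e : Fin 6) (t : K) (w : Fin 8 → K) : y6 e t * phi w * (y6 e t)⁻¹ = phi (act6 e t w) := by
  induction w using Pi.single_induction with
  | zero =>
    rw [act6, zero_add, Finset.sum_eq_zero fun i _ => (show ext e t i ((0 : Fin 8 → K) i) = 0 by
      rcases h : tgt e i with _ | p <;> simp [ext, h]), phi_zero, mul_one, mul_inv_cancel]
  | add v w hv hw =>
    rw [act6_add, phi_add, phi_add, ← hv, ← hw]
    simp [mul_assoc]
  | single i u => rw [phi_single, conj6_single]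

/-- The action of a product of three short root elements. -/
def act3 (a b c : Fin 6) (t : K) (t1 t2 : K) (w : Fin 8 → K) : Fin 8 → K := act6 a t (act6 b t1 (act6 c t2 w))

theorem ext_apply (e : Fin 6) (t : K) (i : Fin 8) (u : K) (k : Fin 8) :
    ext e t i u k = (tgt e i).elim 0 fun p => if k = p.1 then (p.2 : K) * t * u else 0 := by
  rcases h : tgt e i with _ | p <;> simp [ext, h, Pi.single_apply]

theorem act6_0 : act6 (K := K) 0 = fun t w => ![w 0, w 1, w 2, w 3, w 4 - t * w 0, w 5 - t * w 1, w 6 - t * w 2, w 7 - t * w 3] := by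
  funext t w k
  rw [act6, Pi.add_apply, Finset.sum_apply, Fin.sum_univ_eight]
  simp only [ext_apply]
  fin_cases k <;> simp [tgt] <;> ring

theorem act6_1 : act6 (K := K) 1 = fun t w => ![w 0, w 1, w 2 + t * w 0, w 3 + t * w 1, w 4, w 5, w 6 + t * w 4, w 7 + t * w 5] := by
  funext t w k
  rw [act6, Pi.add_apply, Finset.sum_apply, Fin.sum_univ_eight]
  simp only [ext_apply]
  fin_cases k <;> simp [tgt] <;> ring

theorem act6_2 : act6 (K := K) 2 = fun t w => ![w 0, w 1 + t * w 0, w 2, w 3 + t * w 2, w 4, w 5 + t * w 4, w 6, w 7 + t * w 6] := by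
  funext t w k
  rw [act6, Pi.add_apply, Finset.sum_apply, Fin.sum_univ_eight]
  simp only [ext_apply]
  fin_cases k <;> simp [tgt] <;> ring

theorem act6_3 : act6 (K := K) 3 = fun t w => ![w 0 - t * w 4, w 1 - t * w 5, w 2 - t * w 6, w 3 - t * w 7, w 4, w 5, w 6, w 7] := by
  funext t w k
  rw [act6, Pi.add_apply, Finset.sum_apply, Fin.sum_univ_eight]
  simp only [ext_apply]
  fin_cases k <;> simp [tgt] <;> ring

theorem act6_4 : act6 (K := K) 4 = fun t w => ![w 0 + t * w 2, w 1 + t * w 3, w 2, w 3, w 4 + t * w 6, w 5 + t * w 7, w 6, w 7] := by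
  funext t w k
  rw [act6, Pi.add_apply, Finset.sum_apply, Fin.sum_univ_eight]
  simp only [ext_apply]
  fin_cases k <;> simp [tgt] <;> ring

theorem act6_5 : act6 (K := K) 5 = fun t w => ![w 0 + t * w 1, w 1, w 2 + t * w 3, w 3, w 4 + t * w 5, w 5, w 6 + t * w 7, w 7] := by
  funext t w k
  rw [act6, Pi.add_apply, Finset.sum_apply, Fin.sum_univ_eight]
  simp only [ext_apply]
  fin_cases k <;> simp [tgt] <;> ring

theorem act_fn (t : K) (m : Md σ) :
    act3 0 1 2 t (σ t) (σ (σ t)) (emb σ m) = emb σ (fn (sig3 hq hK) t m) := by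
  obtain ⟨A, B, C, D⟩ := m
  simp only [act3, act6_0, act6_1, act6_2]
  funext k
  fin_cases k <;> simp [emb, fn, trF, nrF, trc, nrm, sig3 hq hK, fx_apply] <;> ring

theorem act_fp (t : K) (m : Md σ) :
    act3 3 4 5 t (σ t) (σ (σ t)) (emb σ m) = emb σ (fp (sig3 hq hK) t m) := by
  obtain ⟨A, B, C, D⟩ := m
  simp only [act3, act6_3, act6_4, act6_5]
  funext k
  fin_cases k <;> simp [emb, fp, trF, nrF, trc, nrm, sig3 hq hK, fx_apply] <;> ring

/-- The triple of a short orbit. -/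
noncomputable def tri (a b c : ℕ) (s1 s2 : ℤ) (t : K) : GK :=
  X K a t * X K b ((s1 : K) * σ t) * X K c ((s2 : K) * σ (σ t))

theorem sig_x' (r : ℕ) (hr : r < chevD4.nroots) (t : K) :
    (twistD4 hq hK).sig (X K r t) = X K (twD4.root r) ((symD4.sgn r : K) * σ t) :=
  (twistD4 hq hK).sig_x r hr t

theorem pos_mem {u : GK} (hu : u ∈ (glSys (rulesD4 K)).Ubar) (hf : (twistD4 hq hK).sig u = u) :
    u ∈ twistedD4 K q := by
  obtain ⟨len, hR⟩ := (rulesD4 K).root
  exact (((grpD4 hq hK).fixUbar_eq (rulesD4 K) hR ((orbD4 hq hK).comm_word hR twD4.longSeq)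
    ((twD4_ok.isLongest (T := twistD4 hq hK) (fun _ => rfl) rfl).invSet_eq hR)).2 ⟨hu, hf⟩).2

theorem single_mem' {r : ℕ} (hr : r ∈ [14, 22, 23]) (a : ↥(Fx σ)) : X K r a ∈ twistedD4 K q := by
  have hd : r < chevD4.nroots ∧ chevD4.IsPosRoot r ∧ twD4.root r = r ∧ symD4.sgn r = 1 := by
    revert r; decide +kernel
  refine pos_mem hq hK ((glSys (rulesD4 K)).x_mem_US (show r ∈ {r | chevD4.IsPosRoot r} from hd.2.1) _) ?_
  rw [sig_x' hq hK r hd.1, hd.2.2.1, hd.2.2.2, fx_apply, Int.cast_one, one_mul]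

theorem data3 : ∀ p ∈ ([(19, 16, 15, -1, -1), (20, 21, 17, 1, -1)] : List (ℕ × ℕ × ℕ × ℤ × ℤ)),
    chevD4.IsPosRoot p.1 ∧ chevD4.IsPosRoot p.2.1 ∧ chevD4.IsPosRoot p.2.2.1 ∧
    twD4.root p.1 = p.2.1 ∧ twD4.root p.2.1 = p.2.2.1 ∧ twD4.root p.2.2.1 = p.1 ∧
    symD4.sgn p.1 = p.2.2.2.1 ∧ symD4.sgn p.2.1 * p.2.2.2.1 = p.2.2.2.2 ∧
      symD4.sgn p.2.2.1 * p.2.2.2.2 = 1 ∧
    (p.2.1 ≠ p.1 ∧ p.2.1 ≠ chevD4.neg p.1 ∧ chevD4.commTerms p.1 p.2.1 = []) ∧
    (p.2.2.1 ≠ p.1 ∧ p.2.2.1 ≠ chevD4.neg p.1 ∧ chevD4.commTerms p.1 p.2.2.1 = []) := by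
  decide +kernel

theorem tri_mem {a b c : ℕ} {s1 s2 : ℤ}
    (h : (a, b, c, s1, s2) ∈ ([(19, 16, 15, -1, -1), (20, 21, 17, 1, -1)] : List (ℕ × ℕ × ℕ × ℤ × ℤ))) (t : K) :
    tri hq hK a b c s1 s2 t ∈ twistedD4 K q := by
  obtain ⟨pa, pb, pc, ra, rb, rc, ga, gb, gc, ⟨h1, h2, h3⟩, ⟨h4, h5, h6⟩⟩ := data3 _ h
  simp only at *
  have hm : ∀ r, chevD4.IsPosRoot r → ∀ s : K, X K r s ∈ (glSys (rulesD4 K)).Ubar := fun r hr s =>
    (glSys (rulesD4 K)).x_mem_US (show r ∈ {r | chevD4.IsPosRoot r} from hr) _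
  have hG : ∀ r, chevD4.IsPosRoot r → ∀ s : K, X K r s ∈ (glSys (rulesD4 K)).Gbar := fun r hr s =>
    (glSys (rulesD4 K)).x_mem_Gbar hr.1 _
  refine pos_mem hq hK (mul_mem (mul_mem (hm a pa _) (hm b pb _)) (hm c pc _)) ?_
  rw [tri, (twistD4 hq hK).sig_mul _ (mul_mem (hG a pa _) (hG b pb _)) _ (hG c pc _),
    (twistD4 hq hK).sig_mul _ (hG a pa _) _ (hG b pb _), sig_x' hq hK a pa.1, sig_x' hq hK b pb.1,
    sig_x' hq hK c pc.1, ra, rb, rc, ga]
  simp only [map_mul, map_intCast, sig3 hq hK, ← mul_assoc, ← Int.cast_mul, gb, gc, Int.cast_one, one_mul]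
  rw [← (((x_commute (glSys (rulesD4 K)) pa.1 pb.1 h1 h2 h3 _ _).mul_right
    (x_commute (glSys (rulesD4 K)) pa.1 pc.1 h4 h5 h6 _ _))).eq, mul_assoc]

/-- A lift of the radical modulo its centre. -/
noncomputable def lift8 (m : Md σ) : GK :=
  X K 14 m.1 * tri hq hK 19 16 15 (-1) (-1) m.2.1 * tri hq hK 20 21 17 1 (-1) m.2.2.1 * X K 22 m.2.2.2

theorem lift8_mem (m : Md σ) : lift8 hq hK m ∈ twistedD4 K q ⊓ CC K := by
  refine Subgroup.mem_inf.2 ⟨mul_mem (mul_mem (mul_mem (single_mem' hq hK (by simp) _)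
    (tri_mem hq hK (by simp) _)) (tri_mem hq hK (by simp) _)) (single_mem' hq hK (by simp) _), ?_⟩
  exact mul_mem (mul_mem (mul_mem (x8_mem 0 _) (mul_mem (mul_mem (x8_mem 4 _) (x8_mem 2 _)) (x8_mem 1 _)))
    (mul_mem (mul_mem (x8_mem 5 _) (x8_mem 6 _)) (x8_mem 3 _))) (x8_mem 7 _)

theorem mk_lift8 (m : Md σ) :
    (QuotientGroup.mk ⟨lift8 hq hK m, (Subgroup.mem_inf.1 (lift8_mem hq hK m)).2⟩ : CB K) = phi (emb σ m) := by
  have e : emb σ m = Pi.single 0 (m.1 : K) + (Pi.single 4 m.2.1 + Pi.single 2 (((-1 : ℤ) : K) * σ m.2.1) +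
      Pi.single 1 (((-1 : ℤ) : K) * σ (σ m.2.1))) + (Pi.single 5 m.2.2.1 + Pi.single 6 (((1 : ℤ) : K) * σ m.2.2.1) +
      Pi.single 3 (((-1 : ℤ) : K) * σ (σ m.2.2.1))) + Pi.single 7 (m.2.2.2 : K) := by
    funext k; fin_cases k <;> simp [emb, Pi.single_apply]
  rw [e]
  simp only [phi_add, phi_single, y8, ← QuotientGroup.mk_mul]
  rfl

/-- The words of the short orbit and its negative. -/
noncomputable def shortEl (neg : Bool) (t : K) : GK :=
  bif neg then X K 5 t * X K 10 (σ t) * X K 11 (σ (σ t)) else X K 18 t * X K 13 (σ t) * X K 12 (σ (σ t))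

theorem shortEl_mem (neg : Bool) (t : K) : shortEl hq hK neg t ∈ twistedD4 K q ⊓ CC K := by
  refine Subgroup.mem_inf.2 ⟨?_, ?_⟩
  · have h2 : σ (σ t) = t ^ (q ^ 2) := by rw [frobD4_apply, frobD4_apply, ← pow_mul, pow_two]
    cases neg
    · have := word_mem_genSubgroup (rulesD4 K) (W := d4Words K q) (w := [(18, t), (13, t ^ q), (12, t ^ (q ^ 2))])
        (Or.inr ⟨t, (18, 13, 12), by simp [d4p1, d4p3, d4p4], rfl⟩)
      simpa [shortEl, twistedD4, mul_assoc, h2, frobD4_apply, glSys, X, ← pow_mul, ← pow_two] using this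
    · have := word_mem_genSubgroup (rulesD4 K) (W := d4Words K q) (w := [(5, t), (10, t ^ q), (11, t ^ (q ^ 2))])
        (Or.inr ⟨t, (5, 10, 11), by simp [d4m1, d4m3, d4m4], rfl⟩)
      simpa [shortEl, twistedD4, mul_assoc, h2, frobD4_apply, glSys, X, ← pow_mul, ← pow_two] using this
  · cases neg
    · exact mul_mem (mul_mem (x6_mem 0 _) (x6_mem 1 _)) (x6_mem 2 _)
    · exact mul_mem (mul_mem (x6_mem 3 _) (x6_mem 4 _)) (x6_mem 5 _)

theorem conj_lift8 (neg : Bool) (t : K) (m : Md σ) :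
    (QuotientGroup.mk ⟨shortEl hq hK neg t, (Subgroup.mem_inf.1 (shortEl_mem hq hK neg t)).2⟩ : CB K) *
        phi (emb σ m) *
      (QuotientGroup.mk ⟨shortEl hq hK neg t, (Subgroup.mem_inf.1 (shortEl_mem hq hK neg t)).2⟩ : CB K)⁻¹ =
      phi (emb σ (bif neg then fp (sig3 hq hK) t m else fn (sig3 hq hK) t m)) := by
  cases neg
  · rw [cond_false, ← act_fn, act3, ← conj6, ← conj6, ← conj6]
    rw [show (QuotientGroup.mk ⟨shortEl hq hK false t, (Subgroup.mem_inf.1 (shortEl_mem hq hK false t)).2⟩ : CB K) =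
      y6 0 t * y6 1 (σ t) * y6 2 (σ (σ t)) from rfl]
    rw [mul_inv_rev, mul_inv_rev]
    simp only [mul_assoc]
  · rw [cond_true, ← act_fp, act3, ← conj6, ← conj6, ← conj6]
    rw [show (QuotientGroup.mk ⟨shortEl hq hK true t, (Subgroup.mem_inf.1 (shortEl_mem hq hK true t)).2⟩ : CB K) =
      y6 3 t * y6 4 (σ t) * y6 5 (σ (σ t)) from rfl]
    rw [mul_inv_rev, mul_inv_rev]
    simp only [mul_assoc]

theorem eq_mul_x23 {g h : GK} (hg : g ∈ twistedD4 K q ⊓ CC K) (hh : h ∈ twistedD4 K q ⊓ CC K)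
    (e : (QuotientGroup.mk ⟨g, (Subgroup.mem_inf.1 hg).2⟩ : CB K) =
      QuotientGroup.mk ⟨h, (Subgroup.mem_inf.1 hh).2⟩) : ∃ w : ↥(Fx σ), h = g * X K 23 w := by
  rw [QuotientGroup.eq] at e
  obtain ⟨u, hu⟩ := e
  simp only [Subgroup.coe_mul, Subgroup.coe_inv] at hu
  have hfix : (twistD4 hq hK).sig (X K 23 u) = X K 23 u :=
    hu ▸ (grpD4 hq hK).fixed (mul_mem (inv_mem (Subgroup.mem_inf.1 hg).1) (Subgroup.mem_inf.1 hh).1)
  rw [sig_x' hq hK 23 data8.2.2.1.1, dataSgn.1.2.2, dataSgn.2.2.2.1.2.2, Int.cast_one, one_mul] at hfix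
  refine ⟨⟨u, ?_⟩, by rw [← hu, mul_inv_cancel_left]⟩
  show σ u = u
  obtain ⟨len, hR⟩ := (rulesD4 K).root
  by_contra hne
  have h0 : X K 23 (σ u - u) = X K 14 0 := by
    have := congrArg (fun x => x * X K 23 (-u)) hfix
    simp only [X] at this ⊢
    rw [(glSys (rulesD4 K)).x_add 23 data8.2.2.1.1, (glSys (rulesD4 K)).x_add 23 data8.2.2.1.1, add_neg_cancel,
      (glSys (rulesD4 K)).x_zero data8.2.2.1.1] at this
    rw [(glSys (rulesD4 K)).x_zero (by decide), sub_eq_add_neg]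
    exact this
  exact absurd ((glSys (rulesD4 K)).x_root_inj hR data8.2.2.1.1 (by decide) (sub_ne_zero.2 hne) h0) (by decide)

/-- A torus element. -/
noncomputable def torEl (v : Kˣ) (u : Kˣ) : GK :=
  (glSys (rulesD4 K)).tau (rulesD4 K) (rulesD4 K).root.choose_spec
    (glSys_HMul (rulesD4 K) (rulesD4 K).root.choose_spec) (mkD4 v u (v ^ q) ((v ^ q) ^ q))

theorem torEl_mem (v : Kˣ) {u : Kˣ} (hu : σ (u : K) = u) : torEl (q := q) v u ∈ twistedD4 K q := by
  rw [torEl]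
  refine tau_mem_D4 hq hK _ ((mem_mkD4_iff _).2 ⟨units_pow_cube hK _, Units.ext ?_, rfl, rfl⟩)
  show ((u ^ q : Kˣ) : K) = u
  rw [Units.val_pow_eq_pow_val, ← frobD4_apply hq hK, hu]

theorem torEl_conj23 (v u : Kˣ) (t : K) :
    torEl (q := q) v u * X K 23 t * (torEl (q := q) v u)⁻¹ = X K 23 ((u : K) * t) := by
  rw [torEl, tau_conj _ _ _ _ data8.2.2.1.1]
  congr 2
  rw [show (∏ j : Fin chevD4.rank, mkD4 v u (v ^ q) ((v ^ q) ^ q) j ^ chevD4.cartan j 23) = u by
    simp only [dataCart23]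
    show (∏ j : Fin 4, _) = _
    simp [Fin.prod_univ_four, mkD4]]

include hq hK in
theorem torEl_mem' (v : Kˣ) : torEl (q := q) v 1 ∈ twistedD4 K q ⊓ CC K := by
  refine Subgroup.mem_inf.2 ⟨torEl_mem hq hK v (by simp), ?_⟩
  rw [CC, Subgroup.mem_centralizer_iff]
  rintro _ ⟨t, rfl⟩
  have := torEl_conj23 (q := q) v 1 t
  rw [Units.val_one, one_mul, mul_inv_eq_iff_eq_mul] at this
  exact this.symm

theorem conj_tor8 (v : Kˣ) (w : Fin 8 → K) :
    (QuotientGroup.mk ⟨torEl (q := q) v 1, (Subgroup.mem_inf.1 (torEl_mem' hq hK v)).2⟩ : CB K) * phi w *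
      (QuotientGroup.mk ⟨torEl (q := q) v 1, (Subgroup.mem_inf.1 (torEl_mem' hq hK v)).2⟩ : CB K)⁻¹ =
      phi fun i => (v : K) ^ cartRow 0 i * σ (v : K) ^ cartRow 2 i * σ (σ (v : K)) ^ cartRow 3 i * w i := by
  induction w using Pi.single_induction with
  | zero =>
    simp only [Pi.zero_apply, mul_zero]
    rw [show (fun _ : Fin 8 => (0 : K)) = 0 from rfl, phi_zero]
    simp
  | add a b ha hb =>
    simp only [Pi.add_apply, mul_add]
    rw [show ∀ f g : Fin 8 → K, (fun i => f i + g i) = f + g from fun _ _ => rfl, phi_add, phi_add, ← ha, ← hb]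
    simp [mul_assoc]
  | single i t =>
    rw [show (fun j => (v : K) ^ cartRow 0 j * σ (v : K) ^ cartRow 2 j * σ (σ (v : K)) ^ cartRow 3 j *
      (Pi.single i t : Fin 8 → K) j) = Pi.single i
        ((v : K) ^ cartRow 0 i * σ (v : K) ^ cartRow 2 i * σ (σ (v : K)) ^ cartRow 3 i * t) from funext fun j => by
      rcases eq_or_ne j i with rfl | h
      · simp
      · simp [h], phi_single, phi_single, y8, y8, ← QuotientGroup.mk_inv, ← QuotientGroup.mk_mul,
      ← QuotientGroup.mk_mul]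
    refine congrArg QuotientGroup.mk (Subtype.ext ?_)
    show torEl (q := q) v 1 * X K (L8 i) t * (torEl (q := q) v 1)⁻¹ = X K (L8 i) _
    rw [torEl, tau_conj _ _ _ _ (data8.1 i).1]
    congr 2
    simp only [dataCart]
    show ((∏ j : Fin 4, _ : Kˣ) : K) = _
    simp [Fin.prod_univ_four, mkD4, frobD4_apply]

theorem act_ft (v : Kˣ) (m : Md σ) :
    (fun i => (v : K) ^ cartRow 0 i * σ (v : K) ^ cartRow 2 i * σ (σ (v : K)) ^ cartRow 3 i * emb σ m i) =
      emb σ (ft (sig3 hq hK) v m) := by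
  obtain ⟨A, B, C, D⟩ := m
  have h0 : (v : K) ≠ 0 := v.ne_zero
  have h1 : σ (v : K) ≠ 0 := (map_ne_zero _).2 h0
  have h2 : σ (σ (v : K)) ≠ 0 := (map_ne_zero _).2 h1
  funext k
  fin_cases k <;> simp [emb, ft, cartRow, nrF, nrm, sig3 hq hK, zpow_neg] <;> field_simp

/-- Moving an element of `A` outside the centre by the centre. -/
theorem exists_conj_phase (t : K) (w : ↥(Fx σ)) (h : t ≠ 0 ∨ w ≠ 0) (v : ↥(Fx σ)) :
    ∃ g ∈ twistedD4 K q, g * (tri hq hK 20 21 17 1 (-1) t * X K 22 w) * g⁻¹ =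
      tri hq hK 20 21 17 1 (-1) t * X K 22 w * X K 23 v := by
  have l14 : (14 : ℕ) < chevD4.nroots := by decide
  have l23 : (23 : ℕ) < chevD4.nroots := data8.2.2.1.1
  have hz : ∀ (r : ℕ), r ∈ ([19, 16, 15, 20, 21, 17, 22, 23] : List ℕ) → ∀ a b : K,
      Commute (X K r a) (X K 23 b) := fun r hr a b => by
    rcases (dataA r hr).2 23 (by simp) with rfl | ⟨h1, h2, h3⟩
    · exact x23_commute a b
    · refine x_commute (glSys (rulesD4 K)) (dataA r hr).1 l23 h1 h2 (h3.trans ?_) a b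
      fin_cases hr <;> rfl
  by_cases hw : w = 0
  · have ht : t ≠ 0 := h.resolve_right fun hn => hn hw
    obtain ⟨t0, ht0⟩ : ∃ t0, trc σ t0 ≠ 0 := exists_trc_ne hq.one_lt hK (frobD4_apply hq hK)
    set a : K := σ (σ t) with ha
    have ha0 : a ≠ 0 := (map_ne_zero _).2 ((map_ne_zero _).2 ht)
    set s : K := t0 * ((v : K) * (trc σ t0)⁻¹) * a⁻¹
    have hs : trc σ (s * σ (σ t)) = v := by
      have hc : σ ((v : K) * (trc σ t0)⁻¹) = (v : K) * (trc σ t0)⁻¹ := by
        rw [map_mul, map_inv₀, fx_apply, show σ (trc σ t0) = trc σ t0 from trc_mem (sig3 hq hK) t0]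
      rw [show s * σ (σ t) = t0 * ((v : K) * (trc σ t0)⁻¹) by simp only [s, ← ha]; field_simp]
      conv_lhs => rw [trc]
      simp only [map_mul (σ) t0, map_mul (σ) (σ t0), hc]
      rw [← add_mul, ← add_mul, ← trc, mul_comm (v : K), mul_inv_cancel_left₀ ht0]
    refine ⟨_, tri_mem hq hK (a := 19) (b := 16) (c := 15) (s1 := -1) (s2 := -1) (by simp) s, ?_⟩
    have hnil : ∀ r b, r ∈ ([19, 16, 15, 20, 21, 17, 22, 23] : List ℕ) → b ∈ ([19, 16, 15, 20, 21, 17, 22, 23] : List ℕ) →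
        (r, b) ∈ ([(19, 20), (19, 21), (19, 22), (16, 21), (16, 17), (16, 22), (15, 20), (15, 17), (15, 22)] : List (ℕ × ℕ)) →
        ∀ x y : K, X K r x * X K b y * (X K r x)⁻¹ = X K b y := by
      intro r b hr hb hp x y
      rcases (dataA r hr).2 b hb with rfl | ⟨h1, h2, h3⟩
      · simp at hp
        omega
      · refine conj_x_nil (dataA r hr).1 (dataA b hb).1 h1 h2 (h3.trans ?_) x y
        simp only [List.mem_cons, Prod.mk.injEq, List.not_mem_nil, or_false] at hp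
        rcases hp with ⟨rfl, rfl⟩ | ⟨rfl, rfl⟩ | ⟨rfl, rfl⟩ | ⟨rfl, rfl⟩ | ⟨rfl, rfl⟩ | ⟨rfl, rfl⟩ | ⟨rfl, rfl⟩ |
          ⟨rfl, rfl⟩ | ⟨rfl, rfl⟩ <;> rfl
    have hone : ∀ r b, (r, b) ∈ ([(19, 17), (16, 20), (15, 21)] : List (ℕ × ℕ)) → ∀ x y : K,
        X K r x * X K b y * (X K r x)⁻¹ = X K b y * X K 23 (-(x * y)) := by
      intro r b hp x y
      have hr : r ∈ ([19, 16, 15, 20, 21, 17, 22, 23] : List ℕ) ∧
          b ∈ ([19, 16, 15, 20, 21, 17, 22, 23] : List ℕ) ∧ b ≠ r := by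
        simp only [List.mem_cons, Prod.mk.injEq, List.not_mem_nil, or_false] at hp
        rcases hp with ⟨rfl, rfl⟩ | ⟨rfl, rfl⟩ | ⟨rfl, rfl⟩ <;> simp
      rcases (dataA r hr.1).2 b hr.2.1 with e | ⟨h1, h2, h3⟩
      · exact absurd e.symm hr.2.2
      · have h4 : chevD4.commTerms r b = [(23, -1, 1, 1)] := h3.trans (by
          simp only [List.mem_cons, Prod.mk.injEq, List.not_mem_nil, or_false] at hp
          rcases hp with ⟨rfl, rfl⟩ | ⟨rfl, rfl⟩ | ⟨rfl, rfl⟩ <;> rfl)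
        rw [conj_x (dataA r hr.1).1 (dataA b hr.2.1).1 h1 h2 h4 l23 (hz r hr.1)]
        congr 2
        push_cast
        ring
    rw [hw]
    simp only [ZeroMemClass.coe_zero, (glSys (rulesD4 K)).x_zero (show 22 < chevD4.nroots by decide), mul_one, X]
    simp only [tri]
    set P := X K 19 s
    set Q := X K 16 (((-1 : ℤ) : K) * σ s)
    set R := X K 15 (((-1 : ℤ) : K) * σ (σ s))
    set d := X K 20 t
    set e := X K 21 (((1 : ℤ) : K) * σ t)
    set f := X K 17 (((-1 : ℤ) : K) * σ (σ t))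
    have key : ∀ x y : GK, ∀ z z' : K, P * x * P⁻¹ = y * X K 23 z → (P * (x * X K 23 z') * P⁻¹) =
        y * X K 23 (z + z') := by
      intro x y z z' hx
      have hc : Commute P (X K 23 z') := hz 19 (by simp) _ _
      rw [← x23_add z z', ← mul_assoc y, ← hx]
      simp only [mul_assoc, hc.inv_left.eq]
    have pQ : ∀ (x : GK) (z : K), Q * (x * X K 23 z) * Q⁻¹ = Q * x * Q⁻¹ * X K 23 z := fun x z => by
      have hc : Commute Q (X K 23 z) := hz 16 (by simp) _ z
      calc Q * (x * X K 23 z) * Q⁻¹ = Q * x * (X K 23 z * Q⁻¹) := by simp only [mul_assoc]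
        _ = Q * x * (Q⁻¹ * X K 23 z) := by rw [hc.inv_left.eq]
        _ = _ := by simp only [mul_assoc]
    have c1 : P * (Q * (R * d * R⁻¹) * Q⁻¹) * P⁻¹ = d * X K 23 (σ s * t) := by
      rw [hnil 15 20 (by simp) (by simp) (by simp), hone 16 20 (by simp)]
      rw [key d d 0 _ (by rw [x23_zero, mul_one]; exact hnil 19 20 (by simp) (by simp) (by simp) _ _)]
      congr 2
      push_cast
      ring
    have c2 : P * (Q * (R * e * R⁻¹) * Q⁻¹) * P⁻¹ = e * X K 23 (σ (σ s) * σ t) := by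
      rw [hone 15 21 (by simp), pQ, hnil 16 21 (by simp) (by simp) (by simp)]
      rw [key e e 0 _ (by rw [x23_zero, mul_one]; exact hnil 19 21 (by simp) (by simp) (by simp) _ _)]
      congr 2
      push_cast
      ring
    have c3 : P * (Q * (R * f * R⁻¹) * Q⁻¹) * P⁻¹ = f * X K 23 (s * σ (σ t)) := by
      rw [hnil 15 17 (by simp) (by simp) (by simp), hnil 16 17 (by simp) (by simp) (by simp), hone 19 17 (by simp)]
      congr 2
      push_cast
      ring
    calc P * Q * R * (d * e * f) * (P * Q * R)⁻¹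
        = (P * (Q * (R * d * R⁻¹) * Q⁻¹) * P⁻¹) * (P * (Q * (R * e * R⁻¹) * Q⁻¹) * P⁻¹) *
          (P * (Q * (R * f * R⁻¹) * Q⁻¹) * P⁻¹) := by simp [mul_assoc]
      _ = d * e * f * (X K 23 (σ s * t) * X K 23 (σ (σ s) * σ t) * X K 23 (s * σ (σ t))) := by
          rw [c1, c2, c3]
          have he : ∀ b, Commute (X K 23 b) e := fun b => (hz 21 (by simp) _ b).symm
          have hf : ∀ b, Commute (X K 23 b) f := fun b => (hz 17 (by simp) _ b).symm
          calc d * X K 23 (σ s * t) * (e * X K 23 (σ (σ s) * σ t)) * (f * X K 23 (s * σ (σ t)))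
              = d * (X K 23 (σ s * t) * e) * (X K 23 (σ (σ s) * σ t) * f) * X K 23 (s * σ (σ t)) := by
                simp only [mul_assoc]
            _ = d * (e * X K 23 (σ s * t)) * (f * X K 23 (σ (σ s) * σ t)) * X K 23 (s * σ (σ t)) := by
                rw [(he _).eq, (hf _).eq]
            _ = d * e * (X K 23 (σ s * t) * f) * X K 23 (σ (σ s) * σ t) * X K 23 (s * σ (σ t)) := by
                simp only [mul_assoc]
            _ = d * e * (f * X K 23 (σ s * t)) * X K 23 (σ (σ s) * σ t) * X K 23 (s * σ (σ t)) := by rw [(hf _).eq]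
            _ = _ := by simp only [mul_assoc]
      _ = d * e * f * X K 23 v := by
          rw [x23_add, x23_add, ← hs]
          congr 2
          simp only [trc, map_mul, sig3 hq hK]
          ring
  · refine ⟨_, single_mem' hq hK (r := 14) (by simp) (v * w⁻¹), ?_⟩
    have hb : ∀ b ∈ ([20, 21, 17] : List ℕ), ∀ x : K, Commute (X K 14 ((v * w⁻¹ : ↥(Fx σ)) : K)) (X K b x) := by
      intro b hb x
      obtain ⟨h0, h1, h2, h3⟩ := data14 b (by simp at hb ⊢; omega)
      exact x_commute (glSys (rulesD4 K)) l14 h0 h1 h2 (h3.trans (if_neg (by simp at hb; omega))) _ x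
    have hT : Commute (X K 14 ((v * w⁻¹ : ↥(Fx σ)) : K)) (tri hq hK 20 21 17 1 (-1) t) :=
      ((hb 20 (by simp) _).mul_right (hb 21 (by simp) _)).mul_right (hb 17 (by simp) _)
    obtain ⟨h0, h1, h2, h3⟩ := data14 22 (by simp)
    obtain ⟨k0, k1, k2, k3⟩ := data14 23 (by simp)
    rw [if_pos rfl] at h3
    rw [if_neg (by omega)] at k3
    have e := conj_x l14 h0 h1 h2 h3 l23 (fun a b => x_commute (glSys (rulesD4 K)) l14 k0 k1 k2 k3 a b)
      ((v * w⁻¹ : ↥(Fx σ)) : K) (w : K)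
    have hphase : ((1 : ℤ) : K) * ((v * w⁻¹ : ↥(Fx σ)) : K) * (w : K) = v := by
      rw [Int.cast_one, one_mul, ← Subfield.coe_mul, inv_mul_cancel_right₀ hw]
    rw [hphase] at e
    rw [show ∀ g a b : GK, g * (a * b) * g⁻¹ = (g * a * g⁻¹) * (g * b * g⁻¹) from fun g a b => by simp [mul_assoc],
      hT.eq, mul_inv_cancel_right, e, mul_assoc]

/-- A conjugate of an element of the centre inside the radical. -/
theorem exists_conj22 : ∃ g ∈ twistedD4 K q, ∃ w : ↥(Fx σ), w ≠ 0 ∧ g * X K 22 1 * g⁻¹ = X K 23 w := by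
  obtain ⟨len, hR⟩ := (rulesD4 K).root
  obtain ⟨hs1, hn9, hact⟩ := dataN
  set S := glSys (rulesD4 K)
  obtain ⟨a, ha, hconj⟩ := S.conjP_nI (rulesD4 K) hR ⟨1, by decide⟩
  have hmem : ∀ r ∈ [14, 9], ∀ s : K, s ^ q = s → S.x r s ∈ twistedD4 K q := by
    intro r hr s hs
    have h := word_mem_genSubgroup (rulesD4 K) (W := d4Words K q) (w := [(r, s)]) (Or.inl ⟨s, hs, r, hr, rfl⟩)
    rw [List.map_singleton, List.prod_singleton] at h
    exact h
  have hg : S.nI ⟨1, by decide⟩ ∈ twistedD4 K q := by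
    show S.nEl (chevD4.simple 1) 1 ∈ _
    rw [hs1]
    refine mul_mem (mul_mem (hmem 14 (by simp) 1 (one_pow q)) ?_) (hmem 14 (by simp) 1 (one_pow q))
    rw [hn9]
    refine hmem 9 (by simp) _ ?_
    rw [← frobD4_apply hq hK]
    simp
  have e := hconj 22 (by decide) 1
  rw [hact, mul_one] at e
  have ha0 : a 22 ≠ 0 := right_ne_zero_of_mul_eq_one (ha 22 (by decide))
  refine ⟨_, hg, ⟨a 22, ?_⟩, fun h => ha0 (congrArg Subtype.val h), e⟩
  have hfix := (grpD4 hq hK).fixed (show X K 23 (a 22) ∈ twistedD4 K q from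
    (show S.x 23 (a 22) ∈ twistedD4 K q from by
      rw [← e]
      refine mul_mem (mul_mem hg ?_) (inv_mem hg)
      have := single_mem' hq hK (r := 22) (by simp) 1
      simpa [X] using this))
  rw [sig_x' hq hK 23 data8.2.2.1.1, dataSgn.1.2.2, dataSgn.2.2.2.1.2.2, Int.cast_one, one_mul] at hfix
  show σ (a 22) = a 22
  by_contra hne
  have h0 : X K 23 (σ (a 22) - a 22) = X K 14 0 := by
    have := congrArg (fun x => x * X K 23 (-a 22)) hfix
    simp only [X] at this ⊢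
    rw [(glSys (rulesD4 K)).x_add 23 data8.2.2.1.1, (glSys (rulesD4 K)).x_add 23 data8.2.2.1.1, add_neg_cancel,
      (glSys (rulesD4 K)).x_zero data8.2.2.1.1] at this
    rw [(glSys (rulesD4 K)).x_zero (by decide), sub_eq_add_neg]
    exact this
  exact absurd ((glSys (rulesD4 K)).x_root_inj hR data8.2.2.1.1 (by decide) (sub_ne_zero.2 hne) h0) (by decide)

end

end Cfsg.Agent.D4Deg
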