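import Cfsg.Agent.D4Deg.Group
import Cfsg.Agent.ChevTw.TwD4Perfect
import Cfsg.Agent.ChevTwOrd.D4
import Cfsg.Agent.Char.Integrality
import Mathlib.RepresentationTheory.Character
import Mathlib.RepresentationTheory.Irreducible
import Mathlib.Analysis.Fourier.FiniteAbelian.PontryaginDuality

/-!
# The least degree of a non-linear irreducible representation of ³D₄(q)
-/

set_option autoImplicit false
set_option linter.unusedSectionVars false

namespace Cfsg.Agent.D4Deg

open Cfsg.Lie Cfsg.Agent.ChevGrp Cfsg.Agent.ChevTw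
open Module (finrank)

/-- The sum of a character over a finite group. -/
theorem sum_char {A : Type*} [Group A] [Fintype A] {V : Type*} [AddCommGroup V] [Module ℂ V]
    [FiniteDimensional ℂ V] (ρ : Representation ℂ A V) :
    ∑ a : A, ρ.character a = (Fintype.card A : ℂ) * (finrank ℂ ρ.invariants : ℂ) := by
  have : Invertible (Nat.card A : ℂ) := invertibleOfNonzero (Nat.cast_ne_zero.2 Nat.card_pos.ne')
  rw [← ρ.card_inv_mul_sum_char_eq_finrank, Nat.card_eq_fintype_card, mul_inv_cancel_left₀]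
  exact Nat.cast_ne_zero.2 Fintype.card_ne_zero

/-- An irreducible representation with trivial action has dimension at most one. -/
theorem finrank_le_one {G : Type*} [Group G] {V : Type*} [AddCommGroup V] [Module ℂ V] [FiniteDimensional ℂ V]
    {ρ : Representation ℂ G V} [ρ.IsIrreducible] (h : ∀ g, ρ g = 1) : finrank ℂ V ≤ 1 := by
  rcases subsingleton_or_nontrivial V with hV | hV
  · rw [Module.finrank_zero_of_subsingleton]
    exact zero_le_one
  obtain ⟨v, hv⟩ := exists_ne (0 : V)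
  let W : Subrepresentation ρ := ⟨Submodule.span ℂ {v}, fun g w hw => by
    rw [h g]
    exact hw⟩
  rcases eq_bot_or_eq_top W with hW | hW
  · exfalso
    have h2 : (Submodule.span ℂ {v} : Submodule ℂ V) = ⊥ := congrArg Subrepresentation.toSubmodule hW
    exact hv (by simpa using h2)
  · have h2 : (Submodule.span ℂ {v} : Submodule ℂ V) = ⊤ := congrArg Subrepresentation.toSubmodule hW
    rw [← finrank_top ℂ V, ← h2]
    exact (finrank_span_le_card ({v} : Set V)).trans (by simp)

/-- The excluded degree does not divide the order. -/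
theorem not_dvd_order {q : ℕ} (hq : 2 ≤ q) :
    ¬ (q - 1) * (q ^ 4 + q ^ 3 + 1) ∣ q ^ 12 * (q ^ 2 - 1) * (q ^ 6 - 1) * (q ^ 8 + q ^ 4 + 1) := by
  intro h
  have h1 : q ^ 4 + q ^ 3 + 1 ∣ q ^ 12 * ((q ^ 2 - 1) * (q ^ 6 - 1) * (q ^ 8 + q ^ 4 + 1)) := by
    rw [← mul_assoc, ← mul_assoc]; exact (dvd_mul_left _ _).trans h
  have hcop : Nat.Coprime (q ^ 4 + q ^ 3 + 1) (q ^ 12) := by
    refine Nat.Coprime.pow_right _ ?_
    rw [show q ^ 4 + q ^ 3 + 1 = 1 + q * (q ^ 3 + q ^ 2) by ring, Nat.coprime_comm, Nat.coprime_add_mul_left_right]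
    exact Nat.coprime_one_right _
  have h2 := hcop.dvd_of_dvd_mul_left h1
  have h3 : ((q ^ 4 + q ^ 3 + 1 : ℕ) : ℤ) ∣ 6 * (q : ℤ) ^ 3 + 2 * (q : ℤ) ^ 2 - 4 * q + 5 := by
    have h4 := Int.natCast_dvd_natCast.2 h2
    have e2 : ((q ^ 2 - 1 : ℕ) : ℤ) = (q : ℤ) ^ 2 - 1 := by
      rw [Nat.cast_sub (Nat.one_le_pow _ _ (by omega))]; norm_num
    have e6 : ((q ^ 6 - 1 : ℕ) : ℤ) = (q : ℤ) ^ 6 - 1 := by
      rw [Nat.cast_sub (Nat.one_le_pow _ _ (by omega))]; norm_num
    rw [Nat.cast_mul, Nat.cast_mul, e2, e6] at h4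
    push_cast at h4 ⊢
    have h5 := dvd_sub (dvd_mul_right ((q : ℤ) ^ 4 + q ^ 3 + 1)
      ((q : ℤ) ^ 12 - q ^ 11 + q ^ 7 - 3 * q ^ 6 + 3 * q ^ 5 - q ^ 4 + q ^ 2 - 4 * q + 6)) h4
    refine (Eq.subst ?_ h5)
    ring
  rcases Nat.lt_or_ge q 6 with hlt | hge
  · interval_cases q <;> norm_num at h3
  · have hz : (6 : ℤ) ≤ q := by exact_mod_cast hge
    have hpos : 0 < 6 * (q : ℤ) ^ 3 + 2 * (q : ℤ) ^ 2 - 4 * q + 5 := by nlinarith [sq_nonneg (q : ℤ)]
    have hle := Int.le_of_dvd hpos h3
    push_cast at hle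
    nlinarith [mul_nonneg (sub_nonneg.2 hz) (sq_nonneg (q : ℤ)), sq_nonneg (q : ℤ)]

section

variable {K : Type*} [Field K] [Fintype K] {q : ℕ} (hq : IsPrimePow q) (hK : Fintype.card K = q ^ 3)

local notation "σ" => frobD4 hq hK

theorem fp_neg (t : K) (x : Md σ) : fp (sig3 hq hK) t (fp (sig3 hq hK) (-t) x) = x := by
  obtain ⟨A, B, C, D⟩ := x
  refine Prod.ext (Subtype.ext ?_) (Prod.ext ?_ (Prod.ext ?_ rfl)) <;>
    simp [fp, trF, nrF, trc, nrm, sig3 hq hK, fx_apply] <;> ring

theorem fn_neg (t : K) (x : Md σ) : fn (sig3 hq hK) t (fn (sig3 hq hK) (-t) x) = x := by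
  obtain ⟨A, B, C, D⟩ := x
  refine Prod.ext rfl (Prod.ext ?_ (Prod.ext ?_ (Subtype.ext ?_))) <;>
    simp [fn, trF, nrF, trc, nrm, sig3 hq hK, fx_apply] <;> ring

theorem ft_inv {v : K} (hv : v ≠ 0) (x : Md σ) : ft (sig3 hq hK) v (ft (sig3 hq hK) v⁻¹ x) = x := by
  obtain ⟨A, B, C, D⟩ := x
  have h1 : σ v ≠ 0 := (map_ne_zero _).2 hv
  have h2 : σ (σ v) ≠ 0 := (map_ne_zero _).2 h1
  refine Prod.ext (Subtype.ext ?_) (Prod.ext ?_ (Prod.ext ?_ (Subtype.ext ?_))) <;>
    simp [ft, nrF, nrm] <;> field_simp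

theorem emb_add (m m' : Md σ) : emb σ (m + m') = emb σ m + emb σ m' := by
  funext k
  fin_cases k <;> simp [emb] <;> ring

theorem map_zero_pair :
    (∀ t, fp (sig3 hq hK) t (0 : Md σ) = 0) ∧ (∀ t, fn (sig3 hq hK) t (0 : Md σ) = 0) ∧
      ∀ v, ft (sig3 hq hK) v (0 : Md σ) = 0 := by
  refine ⟨fun t => ?_, fun t => ?_, fun v => ?_⟩
  · refine Prod.ext (Subtype.ext ?_) (Prod.ext ?_ (Prod.ext ?_ ?_)) <;> simp [fp, trF, trc]
  · refine Prod.ext ?_ (Prod.ext ?_ (Prod.ext ?_ (Subtype.ext ?_))) <;> simp [fn, trF, trc]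
  · refine Prod.ext ?_ (Prod.ext ?_ (Prod.ext ?_ ?_)) <;> simp [ft]

theorem tri_zero (a b c : ℕ) (s1 s2 : ℤ) (ha : a < chevD4.nroots) (hb : b < chevD4.nroots) (hc : c < chevD4.nroots) :
    tri hq hK a b c s1 s2 0 = 1 := by
  simp [tri, (glSys (rulesD4 K)).x_zero ha, (glSys (rulesD4 K)).x_zero hb, (glSys (rulesD4 K)).x_zero hc, X]

theorem commA {a b : ℕ} (ha : a ∈ ([20, 21, 17, 22, 23] : List ℕ)) (hb : b ∈ ([20, 21, 17, 22, 23] : List ℕ))
    (t u : K) : Commute (X K a t) (X K b u) := by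
  have ha' : a ∈ ([19, 16, 15, 20, 21, 17, 22, 23] : List ℕ) := by simp at ha ⊢; omega
  have hb' : b ∈ ([19, 16, 15, 20, 21, 17, 22, 23] : List ℕ) := by simp at hb ⊢; omega
  rcases (dataA a ha').2 b hb' with rfl | ⟨h1, h2, h3⟩
  · show X K a t * X K a u = X K a u * X K a t
    simp only [X]
    rw [(glSys (rulesD4 K)).x_add a (dataA a ha').1, (glSys (rulesD4 K)).x_add a (dataA a ha').1, add_comm]
  · refine x_commute (glSys (rulesD4 K)) (dataA a ha').1 (dataA b hb').1 h1 h2 (h3.trans ?_) t u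
    simp at ha hb
    rw [if_neg (by simp; omega), if_neg (by simp; omega), if_neg (by simp; omega), if_neg (by simp; omega),
      if_neg (by simp; omega), if_neg (by simp; omega)]

theorem commute_tri {r : ℕ} (hr : r ∈ ([20, 21, 17, 22, 23] : List ℕ)) (t u : K) :
    Commute (X K r u) (tri hq hK 20 21 17 1 (-1) t) :=
  ((commA hr (by simp) _ _).mul_right (commA hr (by simp) _ _)).mul_right (commA hr (by simp) _ _)

theorem tri_add (t u : K) : tri hq hK 20 21 17 1 (-1) (t + u) =
    tri hq hK 20 21 17 1 (-1) t * tri hq hK 20 21 17 1 (-1) u := by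
  have l : ∀ r ∈ ([20, 21, 17] : List ℕ), ∀ x y : K, X K r (x + y) = X K r x * X K r y := fun r hr x y =>
    ((glSys (rulesD4 K)).x_add r (by revert r; decide +kernel) x y).symm
  rw [tri, l 20 (by simp), map_add, mul_add, l 21 (by simp), map_add, mul_add, l 17 (by simp)]
  simp only [tri]
  set a := X K 20 t
  set a' := X K 20 u
  set b := X K 21 (((1 : ℤ) : K) * σ t)
  set b' := X K 21 (((1 : ℤ) : K) * σ u)
  set c := X K 17 (((-1 : ℤ) : K) * σ (σ t))
  set c' := X K 17 (((-1 : ℤ) : K) * σ (σ u))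
  have h1 : Commute a' b := commA (by simp) (by simp) _ _
  have h2 : Commute a' c := commA (by simp) (by simp) _ _
  have h3 : Commute b' c := commA (by simp) (by simp) _ _
  calc a * a' * (b * b') * (c * c') = a * (a' * b) * (b' * c) * c' := by simp only [mul_assoc]
    _ = a * (b * a') * (c * b') * c' := by rw [h1.eq, h3.eq]
    _ = a * b * (a' * c) * b' * c' := by simp only [mul_assoc]
    _ = a * b * (c * a') * b' * c' := by rw [h2.eq]
    _ = _ := by simp only [mul_assoc]

/-- The abelian subgroup `q⁵` as a homomorphism. -/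
noncomputable def aHom : Multiplicative (K × ↥(Fx σ) × ↥(Fx σ)) →* ↥(twistedD4 K q) :=
  MonoidHom.mk' (fun p => ⟨tri hq hK 20 21 17 1 (-1) p.toAdd.1 * X K 22 (p.toAdd.2.1 : K) * X K 23 (p.toAdd.2.2 : K),
      mul_mem (mul_mem (tri_mem hq hK (by simp) _) (single_mem' hq hK (by simp) _)) (single_mem' hq hK (by simp) _)⟩)
    fun p p' => Subtype.ext (by
      have l : ∀ r ∈ ([22, 23] : List ℕ), ∀ x y : K, X K r (x + y) = X K r x * X K r y := fun r hr x y =>
        ((glSys (rulesD4 K)).x_add r (by revert r; decide +kernel) x y).symm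
      simp only [toAdd_mul, Prod.fst_add, Prod.snd_add, Subfield.coe_add, Subgroup.coe_mul]
      rw [tri_add, l 22 (by simp), l 23 (by simp)]
      set T := tri hq hK 20 21 17 1 (-1) p.toAdd.1
      set T' := tri hq hK 20 21 17 1 (-1) p'.toAdd.1
      set a := X K 22 (p.toAdd.2.1 : K)
      set a' := X K 22 (p'.toAdd.2.1 : K)
      set b := X K 23 (p.toAdd.2.2 : K)
      set b' := X K 23 (p'.toAdd.2.2 : K)
      have h1 : Commute T' a := (commute_tri hq hK (by simp) _ _).symm
      have h2 : Commute T' b := (commute_tri hq hK (by simp) _ _).symm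
      have h3 : Commute a' b := commA (by simp) (by simp) _ _
      calc T * T' * (a * a') * (b * b') = T * (T' * a) * (a' * b) * b' := by simp only [mul_assoc]
        _ = T * (a * T') * (b * a') * b' := by rw [h1.eq, h3.eq]
        _ = T * a * (T' * b) * a' * b' := by simp only [mul_assoc]
        _ = T * a * (b * T') * a' * b' := by rw [h2.eq]
        _ = _ := by simp only [mul_assoc])

set_option maxHeartbeats 2000000 in
include hq hK in
/-- The bound. -/
theorem min_degree {V : Type*} [AddCommGroup V] [Module ℂ V] [FiniteDimensional ℂ V]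
    (ρ : Representation ℂ ↥(twistedD4 K q) V) [ρ.IsIrreducible] (h2 : 2 ≤ finrank ℂ V) :
    q * (q ^ 4 - q ^ 2 + 1) ≤ finrank ℂ V := by
  classical
  have hq1 : 1 < q := hq.one_lt
  have hpow : ∀ x, σ x = x ^ q := frobD4_apply hq hK
  set Fs := ↥(Fx σ)
  have hFc : Fintype.card Fs = q := by rw [← Nat.card_eq_fintype_card]; exact card_Fx hq1 hK hpow
  set d := finrank ℂ V with hd
  have hq0 : (q : ℂ) ≠ 0 := Nat.cast_ne_zero.2 (by omega)
  obtain ⟨ψ, hψ⟩ : ∃ ψ : AddChar K ℂ, ψ 1 ≠ 1 := AddChar.exists_apply_ne_zero.2 one_ne_zero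
  let ψF : AddChar Fs ℂ := ψ.compAddMonoidHom (Fx σ).subtype.toAddMonoidHom
  have hψsum : ∑ v : Fs, ψF v = 0 := AddChar.sum_eq_zero_of_ne_one fun h => hψ (by
    have := DFunLike.congr_fun h (1 : Fs)
    simpa [ψF] using this)
  let zHom : Multiplicative Fs →* ↥(twistedD4 K q) :=
    (aHom hq hK).comp ((AddMonoidHom.inr K (Fs × Fs)).comp (AddMonoidHom.inr Fs Fs)).toMultiplicative
  have hzval : ∀ v : Fs, ((zHom (Multiplicative.ofAdd v) : ↥(twistedD4 K q)) : GL chevD4.Idx K) = X K 23 v := fun v => by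
    show tri hq hK 20 21 17 1 (-1) 0 * X K 22 ((0 : Fs) : K) * X K 23 (v : K) = _
    rw [tri_zero hq hK _ _ _ _ _ (by decide) (by decide) (by decide), ZeroMemClass.coe_zero,
      show X K 22 (0 : K) = 1 from (glSys (rulesD4 K)).x_zero (by decide), one_mul, one_mul]
  let z : Fs → ↥(twistedD4 K q) := fun v => zHom (Multiplicative.ofAdd v)
  set c := ρ.character (z 1) with hc
  have hconst : ∀ v : Fs, v ≠ 0 → ρ.character (z v) = c := by
    intro v hv
    have hvK : (v : K) ≠ 0 := fun e => hv (Subtype.ext e)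
    rw [hc, ← ρ.char_conj (z 1) ⟨_, torEl_mem hq hK 1 (u := Units.mk0 (v : K) hvK) (fx_apply v)⟩]
    congr 1
    refine Subtype.ext ?_
    simp only [z, Subgroup.coe_mul, Subgroup.coe_inv, hzval]
    rw [torEl_conj23]
    simp
  let ρz : Representation ℂ (Multiplicative Fs) V := ρ.comp zHom
  set f := finrank ℂ ρz.invariants with hf
  have hfz : (d : ℂ) + ((q : ℂ) - 1) * c = q * f := by
    have h := sum_char ρz
    rw [Fintype.card_multiplicative, hFc, ← hf] at h
    rw [← h, ← Multiplicative.ofAdd.sum_comp, ← Finset.add_sum_erase _ _ (Finset.mem_univ (0 : Fs))]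
    congr 1
    · rw [ofAdd_zero, Representation.char_one]
    · rw [Finset.sum_congr rfl fun v hv => (show ρz.character (Multiplicative.ofAdd v) = c from
        hconst v (Finset.ne_of_mem_erase hv)), Finset.sum_const, Finset.card_erase_of_mem (Finset.mem_univ _),
        Finset.card_univ, hFc, nsmul_eq_mul, Nat.cast_sub hq1.le]
      simp
  -- the multiplicity on `A`
  let φ : Multiplicative (K × Fs × Fs) →* ℂ :=
    { toFun := fun p => ψF p.toAdd.2.2
      map_one' := ψF.map_zero_eq_one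
      map_mul' := fun p p' => ψF.map_add_eq_mul _ _ }
  let ρ' : Representation ℂ (Multiplicative (K × Fs × Fs)) V :=
    { toFun := fun p => φ p • ρ (aHom hq hK p)
      map_one' := by simp
      map_mul' := fun p p' => by
        rw [map_mul, map_mul, map_mul, smul_mul_smul_comm] }
  set μ := finrank ℂ ρ'.invariants with hμ
  let aE : K → Fs → Fs → ↥(twistedD4 K q) := fun t w v => aHom hq hK (Multiplicative.ofAdd (t, w, v))
  have hshift : ∀ t w, (t ≠ 0 ∨ w ≠ 0) → ∀ v, ρ.character (aE t w v) = ρ.character (aE t w 0) := by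
    intro t w htw v
    obtain ⟨g, hg, he⟩ := exists_conj_phase hq hK t w htw v
    rw [← ρ.char_conj (aE t w 0) ⟨g, hg⟩]
    congr 1
    refine Subtype.ext ?_
    show tri hq hK 20 21 17 1 (-1) t * X K 22 (w : K) * X K 23 (v : K) =
      g * (tri hq hK 20 21 17 1 (-1) t * X K 22 (w : K) * X K 23 ((0 : Fs) : K)) * g⁻¹
    rw [ZeroMemClass.coe_zero, x23_zero, mul_one, he]
  have hmu : (d : ℂ) - c = (q : ℂ) ^ 5 * μ := by
    have h := sum_char ρ'
    rw [Fintype.card_multiplicative, Fintype.card_prod, Fintype.card_prod, hFc, hK, ← hμ] at h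
    rw [show (q : ℂ) ^ 5 = ((q ^ 3 * (q * q) : ℕ) : ℂ) by push_cast; ring, ← h, ← Multiplicative.ofAdd.sum_comp]
    have hchar : ∀ t w v, ρ'.character (Multiplicative.ofAdd (t, w, v)) = ψF v * ρ.character (aE t w v) :=
      fun t w v => by
        show LinearMap.trace ℂ V (φ (Multiplicative.ofAdd (t, w, v)) • ρ (aHom hq hK _)) = _
        rw [map_smul, smul_eq_mul]
        rfl
    rw [Fintype.sum_prod_type, ← Finset.add_sum_erase _ _ (Finset.mem_univ (0 : K)),
      Fintype.sum_prod_type, ← Finset.add_sum_erase _ _ (Finset.mem_univ (0 : Fs))]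
    have hz1 : ∑ t ∈ (Finset.univ : Finset K).erase 0, ∑ p : Fs × Fs, ρ'.character (Multiplicative.ofAdd (t, p)) = 0 := by
      refine Finset.sum_eq_zero fun t ht => ?_
      rw [Fintype.sum_prod_type]
      refine Finset.sum_eq_zero fun w _ => ?_
      simp only [hchar, hshift t w (Or.inl (Finset.ne_of_mem_erase ht)), ← Finset.sum_mul, hψsum, zero_mul]
    have hz2 : ∑ w ∈ (Finset.univ : Finset Fs).erase 0, ∑ v : Fs, ρ'.character (Multiplicative.ofAdd ((0 : K), w, v)) = 0 := by
      refine Finset.sum_eq_zero fun w hw => ?_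
      simp only [hchar, hshift 0 w (Or.inr (Finset.ne_of_mem_erase hw)), ← Finset.sum_mul, hψsum, zero_mul]
    rw [hz1, hz2, add_zero, add_zero]
    simp only [hchar]
    have haz : ∀ v, aE 0 0 v = z v := fun v => rfl
    simp only [haz]
    have h1 : ∑ v ∈ (Finset.univ : Finset Fs).erase 0, ψF v * ρ.character (z v) = -c := by
      rw [Finset.sum_congr rfl fun v hv => by rw [hconst v (Finset.ne_of_mem_erase hv)], ← Finset.sum_mul]
      have := Finset.add_sum_erase _ (fun v => ψF v) (Finset.mem_univ (0 : Fs))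
      rw [hψsum, AddChar.map_zero_eq_one] at this
      linear_combination c * this
    rw [← Finset.add_sum_erase _ _ (Finset.mem_univ (0 : Fs)), h1, AddChar.map_zero_eq_one,
      show z 0 = 1 from map_one zHom, Representation.char_one, one_mul]
    ring
  have hdeq : d = f + (q - 1) * q ^ 4 * μ := by
    have h : (d : ℂ) = ((f + (q - 1) * q ^ 4 * μ : ℕ) : ℂ) := by
      rw [Nat.cast_add, Nat.cast_mul, Nat.cast_mul, Nat.cast_sub hq1.le, Nat.cast_one, Nat.cast_pow]
      refine mul_left_cancel₀ hq0 ?_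
      linear_combination hfz + ((q : ℂ) - 1) * hmu
    exact_mod_cast h
  have hperf := thm_S1108 hq hK
  have hsimple : IsSimpleGroup ↥(twistedD4 K q) := (ChevTwOrd.simple_D4 hq hK hperf).1
  have hμ0 : μ ≠ 0 := by
    intro h0
    rw [h0, mul_zero, add_zero] at hdeq
    have htop : ρz.invariants = ⊤ :=
      Submodule.eq_top_of_finrank_eq (by rw [← hf, ← hdeq])
    have hfix : ρ (z 1) = 1 := LinearMap.ext fun w => by
      have hw : w ∈ ρz.invariants := htop ▸ Submodule.mem_top
      exact hw (Multiplicative.ofAdd (1 : Fs))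
    let N : Subgroup ↥(twistedD4 K q) :=
      { carrier := {g | ρ g = 1}
        one_mem' := map_one ρ
        mul_mem' := fun {a b} (ha : ρ a = 1) (hb : ρ b = 1) => (map_mul ρ a b).trans (by rw [ha, hb, one_mul])
        inv_mem' := fun {a} (ha : ρ a = 1) => by
          show ρ a⁻¹ = 1
          have := map_mul ρ a⁻¹ a
          rw [inv_mul_cancel, map_one, ha, mul_one] at this
          exact this.symm }
    have hN : N.Normal := ⟨fun n (hn : ρ n = 1) g => by
      show ρ (g * n * g⁻¹) = 1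
      rw [map_mul, map_mul, hn, mul_one, ← map_mul, mul_inv_cancel, map_one]⟩
    rcases hN.eq_bot_or_eq_top with e | e
    · have h1 : z 1 ∈ N := hfix
      rw [e, Subgroup.mem_bot, Subtype.ext_iff, hzval] at h1
      obtain ⟨len, hR⟩ := (rulesD4 K).root
      have h14 : X K 23 ((1 : Fs) : K) = X K 14 0 := by
        rw [h1]; exact ((glSys (rulesD4 K)).x_zero (by decide)).symm
      exact absurd ((glSys (rulesD4 K)).x_root_inj hR data8.2.2.1.1 (by decide) one_ne_zero h14) (by decide)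
    · have := finrank_le_one (ρ := ρ) fun g => (show g ∈ N from e ▸ Subgroup.mem_top g)
      omega
  -- the action of the radical on the invariants of the centre
  set W := ρz.invariants with hW
  have hcomm : ∀ g : ↥(twistedD4 K q), (g : GL chevD4.Idx K) ∈ CC K → ∀ w ∈ W, ρ g w ∈ W := by
    intro g hg w hw a
    show ρ (zHom a) (ρ g w) = ρ g w
    have hga : zHom a * g = g * zHom a := Subtype.ext (by
      show ((zHom a : ↥(twistedD4 K q)) : GL chevD4.Idx K) * g = g * _
      rw [← ofAdd_toAdd a, hzval]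
      exact (Subgroup.mem_centralizer_iff.1 hg) _ ⟨_, rfl⟩)
    rw [← Module.End.mul_apply, ← map_mul, hga, map_mul, Module.End.mul_apply]
    exact congrArg (ρ g) (hw a)
  have heq : ∀ (g h : GL chevD4.Idx K) (hg : g ∈ twistedD4 K q ⊓ CC K) (hh : h ∈ twistedD4 K q ⊓ CC K),
      (QuotientGroup.mk ⟨g, (Subgroup.mem_inf.1 hg).2⟩ : CB K) = QuotientGroup.mk ⟨h, (Subgroup.mem_inf.1 hh).2⟩ →
      ∀ w ∈ W, ρ ⟨h, (Subgroup.mem_inf.1 hh).1⟩ w = ρ ⟨g, (Subgroup.mem_inf.1 hg).1⟩ w := by
    intro g h hg hh e w hw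
    obtain ⟨u, rfl⟩ := eq_mul_x23 hq hK hg hh e
    have e2 : (⟨g * X K 23 (u : K), (Subgroup.mem_inf.1 hh).1⟩ : ↥(twistedD4 K q)) =
        ⟨g, (Subgroup.mem_inf.1 hg).1⟩ * z u := Subtype.ext (by simp [z, hzval])
    rw [e2, map_mul, Module.End.mul_apply]
    exact congrArg _ (hw (Multiplicative.ofAdd u))
  set M := Md σ
  let L : M → ↥(twistedD4 K q) := fun m => ⟨lift8 hq hK m, (Subgroup.mem_inf.1 (lift8_mem hq hK m)).1⟩
  have hLW : ∀ m, ∀ w ∈ W, ρ (L m) w ∈ W := fun m => hcomm _ (Subgroup.mem_inf.1 (lift8_mem hq hK m)).2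
  have hLadd : ∀ m m', ∀ w ∈ W, ρ (L m) (ρ (L m') w) = ρ (L (m + m')) w := by
    intro m m' w hw
    rw [← Module.End.mul_apply, ← map_mul]
    refine heq _ (lift8 hq hK m * lift8 hq hK m') (lift8_mem hq hK (m + m'))
      (mul_mem (lift8_mem hq hK m) (lift8_mem hq hK m')) ?_ w hw
    rw [mk_lift8, emb_add, phi_add, ← mk_lift8, ← mk_lift8, ← QuotientGroup.mk_mul]
    rfl
  have hL0 : ∀ w ∈ W, ρ (L 0) w = w := by
    intro w hw
    refine (heq 1 _ (one_mem _) (lift8_mem hq hK 0) ?_ w hw).trans ?_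
    · rw [mk_lift8, show emb σ (0 : M) = 0 by funext k; fin_cases k <;> simp [emb], phi_zero]
      rfl
    · show ρ 1 w = w
      simp
  have hnondeg : ∀ m : M, m ≠ 0 → ∑ x : M, ψ (-pair σ x m) = 0 := by
    intro m hm
    let χm : AddChar M ℂ :=
      { toFun := fun x => ψ (-pair σ x m)
        map_zero_eq_one' := by simp [pair, trc]
        map_add_eq_mul' := fun x y => by
          show ψ (-pair σ (x + y) m) = _
          rw [pair_comm (x + y), pair_add, pair_comm m x, pair_comm m y, neg_add, AddChar.map_add_eq_mul] }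
    refine AddChar.sum_eq_zero_of_ne_one (ψ := χm) fun h => hm (pair_nondeg hq1 hK hpow ψ hψ fun x => ?_)
    have := DFunLike.congr_fun h x
    have h1 : ψ (-pair σ x m) = 1 := this
    rw [pair_comm m x]
    have h3 := ψ.map_add_eq_mul (-pair σ x m) (pair σ x m)
    rw [neg_add_cancel, AddChar.map_zero_eq_one, h1, one_mul] at h3
    exact h3.symm
  let Pr : M → Module.End ℂ V := fun x => ∑ m : M, ψ (-pair σ x m) • ρ (L m)
  have hPr : ∀ x w, Pr x w = ∑ m : M, ψ (-pair σ x m) • ρ (L m) w := fun x w => by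
    simp [Pr, LinearMap.sum_apply]
  have hPW : ∀ x, ∀ w ∈ W, Pr x w ∈ W := fun x w hw => by
    rw [hPr]; exact Submodule.sum_mem _ fun m _ => Submodule.smul_mem _ _ (hLW m w hw)
  have hPeig : ∀ x n, ∀ w ∈ W, ρ (L n) (Pr x w) = ψ (pair σ x n) • Pr x w := by
    intro x n w hw
    simp only [hPr, map_sum, map_smul, Finset.smul_sum, smul_smul]
    rw [← Equiv.sum_comp (Equiv.addLeft n) fun m => (ψ (pair σ x n) * ψ (-pair σ x m)) • ρ (L m) w]
    refine Finset.sum_congr rfl fun m _ => ?_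
    rw [hLadd n m w hw, Equiv.coe_addLeft, ← AddChar.map_add_eq_mul, pair_add]
    congr 2
    ring
  let Eig : M → Prop := fun x => ∃ w ∈ W, w ≠ 0 ∧ ∀ m, ρ (L m) w = ψ (pair σ x m) • w
  let S : Set M := {x | x ≠ 0 ∧ Eig x}
  have hclosed : ∀ (l : GL chevD4.Idx K) (hl : l ∈ twistedD4 K q ⊓ CC K) (F : M → M) (x y : M),
      (∀ m, (QuotientGroup.mk ⟨l, (Subgroup.mem_inf.1 hl).2⟩ : CB K) * phi (emb σ m) *
          (QuotientGroup.mk ⟨l, (Subgroup.mem_inf.1 hl).2⟩ : CB K)⁻¹ = phi (emb σ (F m))) →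
      Function.Surjective F → (∀ m, pair σ y (F m) = pair σ x m) → Eig x → Eig y := by
    intro l hl F x y hconj hF hxy ⟨w, hw, hw0, hev⟩
    have hlT := (Subgroup.mem_inf.1 hl).1
    refine ⟨ρ ⟨l, hlT⟩ w, hcomm _ (Subgroup.mem_inf.1 hl).2 w hw, fun h => hw0 ?_, fun m' => ?_⟩
    · have := congrArg (ρ (⟨l, hlT⟩ : ↥(twistedD4 K q))⁻¹) h
      rwa [← Module.End.mul_apply, ← map_mul, inv_mul_cancel, map_one, Module.End.one_apply, map_zero] at this
    · obtain ⟨m, rfl⟩ := hF m'
      rw [hxy, ← map_smul, ← hev m, ← Module.End.mul_apply, ← Module.End.mul_apply, ← map_mul, ← map_mul]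
      refine (heq (lift8 hq hK (F m) * l) (l * lift8 hq hK m) (mul_mem (lift8_mem hq hK (F m)) hl)
        (mul_mem hl (lift8_mem hq hK m)) ?_ w hw).symm
      have e1 := hconj m
      rw [← mk_lift8, ← mk_lift8, mul_inv_eq_iff_eq_mul, ← QuotientGroup.mk_mul, ← QuotientGroup.mk_mul] at e1
      exact e1.symm
  obtain ⟨hp0, hn0, ht0⟩ := map_zero_pair hq hK
  have hSp : ∀ t, ∀ x ∈ S, fp (sig3 hq hK) t x ∈ S := by
    rintro t x ⟨hx0, hx⟩
    refine ⟨fun h => hx0 ?_, hclosed _ (shortEl_mem hq hK false (-t)) (fn (sig3 hq hK) (-t)) x _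
      (fun m => conj_lift8 hq hK false (-t) m) ?_ ?_ hx⟩
    · rw [← fp_neg hq hK (-t) x, neg_neg, h, hp0]
    · exact fun m => ⟨fn (sig3 hq hK) t m, by
        have := fn_neg hq hK (-t) m
        rwa [neg_neg] at this⟩
    · intro m
      rw [pair_fn]
      have := fp_neg hq hK (-t) x
      rw [neg_neg] at this
      rw [this]
  have hSn : ∀ t, ∀ x ∈ S, fn (sig3 hq hK) t x ∈ S := by
    rintro t x ⟨hx0, hx⟩
    refine ⟨fun h => hx0 ?_, hclosed _ (shortEl_mem hq hK true (-t)) (fp (sig3 hq hK) (-t)) x _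
      (fun m => conj_lift8 hq hK true (-t) m) ?_ ?_ hx⟩
    · rw [← fn_neg hq hK (-t) x, neg_neg, h, hn0]
    · exact fun m => ⟨fp (sig3 hq hK) t m, by
        have := fp_neg hq hK (-t) m
        rwa [neg_neg] at this⟩
    · intro m
      rw [pair_fp]
      have := fn_neg hq hK (-t) x
      rw [neg_neg] at this
      rw [this]
  have hSt : ∀ v : K, v ≠ 0 → ∀ x ∈ S, ft (sig3 hq hK) v x ∈ S := by
    rintro v hv x ⟨hx0, hx⟩
    have hv' := inv_ne_zero hv
    refine ⟨fun h => hx0 ?_, hclosed _ (torEl_mem' hq hK (Units.mk0 v⁻¹ hv')) (ft (sig3 hq hK) v⁻¹) x _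
      (fun m => ?_) ?_ ?_ hx⟩
    · have := ft_inv hq hK hv' x
      rw [inv_inv, h, ht0] at this
      exact this.symm
    · have := conj_tor8 hq hK (Units.mk0 v⁻¹ hv') (emb σ m)
      rw [act_ft, Units.val_mk0] at this
      exact this
    · exact fun m => ⟨ft (sig3 hq hK) v m, by
        have := ft_inv hq hK hv' m
        rwa [inv_inv] at this⟩
    · intro m
      rw [pair_ft]
      have := ft_inv hq hK hv' x
      rw [inv_inv] at this
      rw [this]
  have hSne : S.Nonempty := by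
    by_contra hemp
    rw [Set.not_nonempty_iff_eq_empty] at hemp
    have hcard : (Fintype.card M : ℂ) ≠ 0 := Nat.cast_ne_zero.2 Fintype.card_ne_zero
    have hfixW : ∀ n, ∀ w ∈ W, ρ (L n) w = w := by
      intro n w hw
      have hzero : ∀ x : M, x ≠ 0 → Pr x w = 0 := by
        intro x hx
        by_contra hne
        have : x ∈ S := ⟨hx, Pr x w, hPW x w hw, hne, fun m => hPeig x m w hw⟩
        rw [hemp] at this
        exact this
      have hsum : ∑ x : M, Pr x w = (Fintype.card M : ℂ) • w := by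
        simp only [hPr]
        rw [Finset.sum_comm]
        simp only [← Finset.sum_smul]
        rw [Finset.sum_eq_single (0 : M) (fun m _ hm => by rw [hnondeg m hm, zero_smul]) (by simp), hL0 w hw]
        congr 1
        simp [pair, trc]
      rw [Finset.sum_eq_single (0 : M) (fun x _ hx => hzero x hx) (by simp)] at hsum
      have h5 := hPeig 0 n w hw
      rw [hsum, map_smul, show pair σ (0 : M) n = 0 by simp [pair, trc], AddChar.map_zero_eq_one, one_smul] at h5
      exact smul_right_injective V hcard h5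
    -- the element `x₂₂(1)`
    set u := aE 0 1 0 with hu
    have huval : (u : GL chevD4.Idx K) = X K 22 1 := by
      show tri hq hK 20 21 17 1 (-1) 0 * X K 22 ((1 : Fs) : K) * X K 23 ((0 : Fs) : K) = _
      rw [tri_zero hq hK _ _ _ _ _ (by decide) (by decide) (by decide), ZeroMemClass.coe_zero, x23_zero, one_mul,
        mul_one, OneMemClass.coe_one]
    let PZ : Module.End ℂ V := ∑ v : Fs, ρ (z v)
    have hPZmem : ∀ w, PZ w ∈ W := fun w a => by
      show ρ (zHom a) (PZ w) = PZ w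
      simp only [PZ, LinearMap.sum_apply, map_sum]
      rw [← Equiv.sum_comp (Equiv.addLeft a.toAdd) fun v => ρ (z v) w]
      refine Finset.sum_congr rfl fun v _ => ?_
      rw [← Module.End.mul_apply, ← map_mul]
      congr 2
      exact (map_mul zHom a (Multiplicative.ofAdd v)).symm
    have huW : ∀ w ∈ W, ρ u w = w := by
      intro w hw
      have hm : lift8 hq hK ((0 : Fs), (0 : K), (0 : K), (1 : Fs)) = X K 22 1 := by
        rw [lift8, tri_zero hq hK _ _ _ _ _ (by decide) (by decide) (by decide),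
          tri_zero hq hK _ _ _ _ _ (by decide) (by decide) (by decide), ZeroMemClass.coe_zero,
          show X K 14 (0 : K) = 1 from (glSys (rulesD4 K)).x_zero (by decide), one_mul, one_mul, one_mul,
          OneMemClass.coe_one]
      have := hfixW ((0 : Fs), (0 : K), (0 : K), (1 : Fs)) w hw
      rwa [show L ((0 : Fs), (0 : K), (0 : K), (1 : Fs)) = u from Subtype.ext (hm.trans huval.symm)] at this
    have hcomp : ρ u * PZ = PZ := LinearMap.ext fun w => huW _ (hPZmem w)
    have hsumu : ∑ v : Fs, ρ.character (u * z v) = ∑ v : Fs, ρ.character (z v) := by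
      simp only [Representation.character, map_mul]
      rw [← map_sum, ← map_sum, ← Finset.mul_sum]
      exact congrArg _ hcomp
    have huv : ∀ v, ρ.character (u * z v) = ρ.character u := by
      intro v
      have e : u * z v = aE 0 1 v := by
        refine Subtype.ext ?_
        rw [Subgroup.coe_mul, huval]
        simp only [z, hzval]
        show _ = tri hq hK 20 21 17 1 (-1) 0 * X K 22 ((1 : Fs) : K) * X K 23 (v : K)
        rw [tri_zero hq hK _ _ _ _ _ (by decide) (by decide) (by decide), one_mul, OneMemClass.coe_one]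
      rw [e, hshift 0 1 (Or.inr one_ne_zero) v]
    have hsz : ∑ v : Fs, ρ.character (z v) = (q : ℂ) * f := by
      have h := sum_char ρz
      rw [Fintype.card_multiplicative, hFc, ← hf, ← Multiplicative.ofAdd.sum_comp] at h
      exact h
    simp only [huv, Finset.sum_const, Finset.card_univ, hFc, nsmul_eq_mul, hsz] at hsumu
    have hχu : ρ.character u = f := mul_left_cancel₀ hq0 hsumu
    obtain ⟨g, hg, w, hw, he⟩ := exists_conj22 hq hK
    have hcu : ρ.character u = c := by
      rw [← hconst w hw, ← ρ.char_conj u ⟨g, hg⟩]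
      congr 1
      refine Subtype.ext ?_
      simp only [z, Subgroup.coe_mul, Subgroup.coe_inv, hzval, huval]
      exact he
    have hdf : d = f := by
      have : (d : ℂ) = f := by linear_combination hfz + ((q : ℂ) - 1) * hcu.symm.trans hχu * (-1)
      exact_mod_cast this
    have : 0 < (q - 1) * q ^ 4 * μ := by
      have : 0 < q - 1 := by omega
      have : 0 < μ := Nat.pos_of_ne_zero hμ0
      positivity
    omega
  have hSle : S.ncard ≤ f := by
    have hSF : Fintype ↥S := Fintype.ofFinite _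
    rw [← Nat.card_coe_set_eq, Nat.card_eq_fintype_card]
    choose v hv hv0 hve using fun x : ↥S => x.2.2
    have hPv : ∀ x y : ↥S, Pr y.1 (v x) = if x = y then (Fintype.card M : ℂ) • v x else 0 := by
      intro x y
      rw [hPr]
      simp only [hve, smul_smul, ← Finset.sum_smul, ← AddChar.map_add_eq_mul]
      by_cases hxy : x = y
      · subst hxy
        simp
      · rw [if_neg hxy]
        have := hnondeg (y.1 - x.1) (sub_ne_zero.2 fun e => hxy (Subtype.ext e.symm))
        rw [Finset.sum_congr rfl fun m _ => (show ψ (-pair σ y.1 m + pair σ x.1 m) = ψ (-pair σ m (y.1 - x.1)) by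
          rw [pair_comm m, pair_sub]; congr 1; ring), this, zero_smul]
    have hli : LinearIndependent ℂ (fun x : ↥S => (⟨v x, hv x⟩ : W)) := by
      rw [Fintype.linearIndependent_iff]
      intro a ha y
      have h1 : ∑ x, a x • v x = 0 := by
        have := congrArg (W.subtype) ha
        simpa using this
      have h3 := congrArg (Pr y.1) h1
      simp only [map_sum, map_smul, map_zero, hPv, smul_ite, smul_zero] at h3
      rw [Finset.sum_eq_single y (fun x _ hx => if_neg hx) (fun h => absurd (Finset.mem_univ y) h), if_pos rfl,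
        smul_smul, smul_eq_zero] at h3
      exact (mul_eq_zero.1 (h3.resolve_right (hv0 y))).resolve_right (Nat.cast_ne_zero.2 Fintype.card_ne_zero)
    exact hli.fintype_card_le_finrank
  have hbound := card_le_of_closed (sig3 hq hK) hq1 hK hpow S hSne (fun h => h.1 rfl) hSp hSn hSt
  by_contra hlt
  rw [not_le] at hlt
  have htarget : q * (q ^ 4 - q ^ 2 + 1) = (q - 1) * (q ^ 4 + q ^ 3 + 1) + 1 := by
    obtain ⟨k, rfl⟩ : ∃ k, q = k + 1 := ⟨q - 1, by omega⟩
    simp only [Nat.add_sub_cancel]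
    have : (k + 1) ^ 4 - (k + 1) ^ 2 = (k + 1) ^ 2 * (k ^ 2 + 2 * k) := by
      apply Nat.sub_eq_of_eq_add; ring
    rw [this]; ring
  have hge : (q - 1) * (q ^ 4 + q ^ 3 + 1) ≤ d := by
    have h1 : (q - 1) * q ^ 4 ≤ (q - 1) * q ^ 4 * μ := Nat.le_mul_of_pos_right _ (Nat.pos_of_ne_zero hμ0)
    rw [show (q - 1) * (q ^ 4 + q ^ 3 + 1) = (q ^ 3 + 1) * (q - 1) + (q - 1) * q ^ 4 by ring, hdeq]
    exact Nat.add_le_add (hbound.trans hSle) h1
  have hdd : d = (q - 1) * (q ^ 4 + q ^ 3 + 1) := by omega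
  have hdvd : d ∣ Nat.card ↥(twistedD4 K q) := Cfsg.Agent.Char.finrank_dvd_card ρ
  rw [hdd, ChevTwOrd.order_D4 hq hK (thm_S1106 hq hK)] at hdvd
  exact not_dvd_order (by omega) hdvd

end

end Cfsg.Agent.D4Deg
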